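import Cfsg.Agent.H441.RG.CentS
import Cfsg.Agent.H398.RG.Base

/-!
# S3509, exceptional groups: the common fixed points of frame automorphisms (helper85)

`H : Tow cs h p T n X`, `S` a set of automorphisms preserving `U`, `U⁻` and the representatives of `W` (`PFr`),
`L = Fx S` the common fixed points.

* `form` : the elements of `L` are `u k v`, `u, v ∈ U ∩ L`, `k ∈ L` over `w`, `k v k⁻¹ ∈ U⁻`;
* `dec_U`, `dec_V`, `conj_K` : `L` normalises `⟨U ∩ L, U⁻ ∩ L⟩`;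
* `formF`, `exists_sylow` : `U ∩ L` is a Sylow subgroup, `N_L(U ∩ L) = (U ∩ L) T_L`;
* `core` : `O_p(K) = 1` for `U ∩ L ≤ K ≤ L`, if `K` contains an element over an element opposite to `1`;
* `base` : the base pair `H398.RG.Base`.
-/

set_option autoImplicit false
set_option linter.unusedSectionVars false

namespace Cfsg.Agent.H85.RGT

open CoxeterSystem Cfsg.Agent.ChevalleyStructure.CoxeterGeom Cfsg.Agent.Tits.Roots Cfsg.Agent.Tits.Core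
  Cfsg.Agent.Tits.RootComb Cfsg.Agent.Tits.Exchange Cfsg.Agent.Nodes.Reps Cfsg.Agent.Nodes.BNOf
  Cfsg.Agent.Nodes.StabComb Cfsg.Agent.Nodes.Bruhat Cfsg.Agent.Nodes.OppDec Cfsg.Agent.Nodes.LeviDec
  Cfsg.Agent.Nodes.NormalForm Cfsg.Agent.Nodes.SubComb Cfsg.Agent.KFacts.RgdField
  Cfsg.Agent.BpExc.TorCent Cfsg.Agent.BpExc.Tow Cfsg.Agent.BpExc.Fr Cfsg.Agent.H28.RG Cfsg.Agent.H441.RG

/-! ### common fixed points -/

/-- the common fixed points of `S` -/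
def Fx {Y : Type*} [Group Y] (S : Set (MulAut Y)) : Subgroup Y where
  carrier := {y | ∀ α ∈ S, α y = y}
  one_mem' α _ := map_one α
  mul_mem' {a b} ha hb α hα := by rw [map_mul, ha α hα, hb α hα]
  inv_mem' {a} ha α hα := by rw [map_inv, ha α hα]

theorem mem_Fx {Y : Type*} [Group Y] {S : Set (MulAut Y)} {y : Y} : y ∈ Fx S ↔ ∀ α ∈ S, α y = y := Iff.rfl

variable {I W Y : Type*} [Fintype I] [DecidableEq I] [Group W] [Finite W] [Group Y] {M : CoxeterMatrix I}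
  {cs : CoxeterSystem M W} {A : I → I → ℤ} {h : IsCartan M A} {p : ℕ}
  {J : Type*} [Preorder J] {T : J → Subgroup Y} {n : I → Y} {X : J → (I → ℤ) → Subgroup Y}

/-- the unipotent group -/
def UU (cs : CoxeterSystem M W) (h : IsCartan M A) (X : J → (I → ℤ) → Subgroup Y) : Subgroup Y :=
  RGD.Sup (XL X) (RGD.Pos cs h)

/-- the opposite unipotent group -/
def VV (cs : CoxeterSystem M W) (h : IsCartan M A) (X : J → (I → ℤ) → Subgroup Y) : Subgroup Y :=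
  RGD.Sup (XL X) (Neg cs h)

/-- an automorphism preserving the frame and the positive roots -/
structure PFr (H : Tow cs h p T n X) (α : MulAut Y) : Prop where
  pos : ∀ u ∈ UU cs h X, α u ∈ UU cs h X
  neg : ∀ u ∈ VV cs h X, α u ∈ VV cs h X
  rp : ∀ w k, Rp cs H.nsys w k → ∃ w', Rp cs H.nsys w' (α k)

variable (H : Tow cs h p T n X) {S : Set (MulAut Y)}

/-- frame automorphisms over `θ` preserving the positive roots -/
theorem PFr.of_fr (hG : GG cs h (TL T) (XL X) = ⊤)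
    (hsep : ∀ a, IsRoot cs h a → ∃ s ∈ TL T, ∀ u ∈ XL X a, u * s = s * u → u = 1)
    {α : MulAut Y} {θ : (I → ℤ) ≃+ (I → ℤ)} (Fα : Fr cs h (TL T) (XL X) α θ)
    (hpos : ∀ a, IsRoot cs h a → 0 ≤ a → 0 ≤ θ a) : PFr H α where
  pos u hu := by
    have h1 : UU cs h X ≤ (UU cs h X).comap α.toMonoidHom := by
      refine RGD.Sup_le fun a ha => ?_
      intro y hy
      exact RGD.le_Sup (S := RGD.Pos cs h) ⟨(Fα.root a).2 ha.1, hpos a ha.1 ha.2⟩ ((Fα.map a ha.1 y).2 hy)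
    exact h1 hu
  neg u hu := by
    have h1 : VV cs h X ≤ (VV cs h X).comap α.toMonoidHom := by
      refine RGD.Sup_le fun a ha => ?_
      intro y hy
      have h2 := hpos (-a) ha.1.neg (neg_nonneg.2 ha.2)
      rw [map_neg, neg_nonneg] at h2
      exact RGD.le_Sup (S := Neg cs h) ⟨(Fα.root a).2 ha.1, h2⟩ ((Fα.map a ha.1 y).2 hy)
    exact h1 hu
  rp _ _ hk := Cfsg.Agent.BpExc.NChev.rp_fr H hG hsep Fα hk

theorem fix_of (hS : ∀ α ∈ S, PFr H α) {w : W} {u k v : Y} (hu : u ∈ UU cs h X) (hk : Rp cs H.nsys w k)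
    (hv : v ∈ UU cs h X) (hkv : k * v * k⁻¹ ∈ VV cs h X) (hc : u * k * v ∈ Fx S) :
    u ∈ Fx S ∧ k ∈ Fx S ∧ v ∈ Fx S := by
  have key : ∀ α ∈ S, α u = u ∧ α k = k ∧ α v = v := by
    intro α hα
    obtain ⟨w', hk'⟩ := (hS α hα).rp w k hk
    have hkv' : α k * α v * (α k)⁻¹ ∈ VV cs h X := by
      rw [← map_mul, ← map_inv, ← map_mul]
      exact (hS α hα).neg _ hkv
    obtain ⟨-, h1, h2, h3⟩ := form_unique H ((hS α hα).pos _ hu) hu hk' hk ((hS α hα).pos _ hv) hkv' hv hkv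
      (by rw [← map_mul, ← map_mul, hc α hα])
    exact ⟨h1, h2, h3⟩
  exact ⟨fun α hα => (key α hα).1, fun α hα => (key α hα).2.1, fun α hα => (key α hα).2.2⟩

/-- **The form of the elements of `L`.** -/
theorem form (hS : ∀ α ∈ S, PFr H α) (hG : GG cs h (TL T) (XL X) = ⊤) {c : Y} (hc : c ∈ Fx S) :
    ∃ w, ∃ u ∈ UU cs h X ⊓ Fx S, ∃ k, Rp cs H.nsys w k ∧ k ∈ Fx S ∧
      ∃ v ∈ UU cs h X ⊓ Fx S, k * v * k⁻¹ ∈ VV cs h X ∧ c = u * k * v := by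
  obtain ⟨w, u, hu, k, hk, v, hv, rfl⟩ := H.exists_normal_form (g := c) (by rw [hG]; exact Subgroup.mem_top c)
  have hv' : v ∈ UU cs h X :=
    RGD.Sup_mono (S := NW cs h w) (S' := RGD.Pos cs h) (fun x hx => ⟨hx.1, hx.2.1⟩) hv
  have hkv : k * v * k⁻¹ ∈ VV cs h X :=
    conj_SupL H hk (S' := Neg cs h) (fun x hx => hx.1) (fun x hx => ⟨hx.1.act w, hx.2.2⟩) hv
  obtain ⟨h1, h2, h3⟩ := fix_of H hS hu hk hv' hkv hc
  exact ⟨w, u, ⟨hu, h1⟩, k, hk, h2, v, ⟨hv', h3⟩, hkv, rfl⟩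

/-- decomposition of the elements of `U ∩ L` -/
theorem dec_U (hS : ∀ α ∈ S, PFr H α) {w : W} {k v : Y} (hk : Rp cs H.nsys w k) (hkF : k ∈ Fx S)
    (hv : v ∈ UU cs h X ⊓ Fx S) : ∃ b ∈ UU cs h X ⊓ Fx S, ∃ c ∈ UU cs h X ⊓ Fx S, v = b * c ∧
      k * b * k⁻¹ ∈ UU cs h X ⊓ Fx S ∧ k * c * k⁻¹ ∈ VV cs h X ⊓ Fx S := by
  obtain ⟨b, hb, c, hc, e, h1, h2⟩ := dec_pos H hk hv.1
  have key : ∀ α ∈ S, α b = b ∧ α c = c := fun α hα =>
    fix_dec (α := α) (UP := UU cs h X) (UN := VV cs h X) (fun x hx hx' => eq_one_of_pos_neg H hx hx')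
      (fun x => (hS α hα).pos x) (fun x => (hS α hα).neg x) (hkF α hα) h1 h2 (by rw [← e]; exact hv.2 α hα)
  have hbF : b ∈ Fx S := fun α hα => (key α hα).1
  have hcF : c ∈ Fx S := fun α hα => (key α hα).2
  have h3 : k * b * k⁻¹ ∈ Fx S := mul_mem (mul_mem hkF hbF) (inv_mem hkF)
  have h4 : k * c * k⁻¹ ∈ Fx S := mul_mem (mul_mem hkF hcF) (inv_mem hkF)
  exact ⟨b, ⟨hb, hbF⟩, c, ⟨hc, hcF⟩, e, ⟨h1, h3⟩, ⟨h2, h4⟩⟩

/-- decomposition of the elements of `U⁻ ∩ L` -/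
theorem dec_V (hS : ∀ α ∈ S, PFr H α) {w : W} {k v : Y} (hk : Rp cs H.nsys w k) (hkF : k ∈ Fx S)
    (hv : v ∈ VV cs h X ⊓ Fx S) : ∃ b ∈ VV cs h X ⊓ Fx S, ∃ c ∈ VV cs h X ⊓ Fx S, v = b * c ∧
      k * b * k⁻¹ ∈ UU cs h X ⊓ Fx S ∧ k * c * k⁻¹ ∈ VV cs h X ⊓ Fx S := by
  obtain ⟨b, hb, c, hc, e, h1, h2⟩ := dec_neg H hk hv.1
  have key : ∀ α ∈ S, α b = b ∧ α c = c := fun α hα =>
    fix_dec (α := α) (UP := UU cs h X) (UN := VV cs h X) (fun x hx hx' => eq_one_of_pos_neg H hx hx')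
      (fun x => (hS α hα).pos x) (fun x => (hS α hα).neg x) (hkF α hα) h1 h2 (by rw [← e]; exact hv.2 α hα)
  have hbF : b ∈ Fx S := fun α hα => (key α hα).1
  have hcF : c ∈ Fx S := fun α hα => (key α hα).2
  have h3 : k * b * k⁻¹ ∈ Fx S := mul_mem (mul_mem hkF hbF) (inv_mem hkF)
  have h4 : k * c * k⁻¹ ∈ Fx S := mul_mem (mul_mem hkF hcF) (inv_mem hkF)
  exact ⟨b, ⟨hb, hbF⟩, c, ⟨hc, hcF⟩, e, ⟨h1, h3⟩, ⟨h2, h4⟩⟩

/-- `k ∈ L` over `w` normalises `⟨U ∩ L, U⁻ ∩ L⟩` -/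
theorem conj_rp (hS : ∀ α ∈ S, PFr H α) {w : W} {k : Y} (hk : Rp cs H.nsys w k) (hkF : k ∈ Fx S) {x : Y}
    (hx : x ∈ (UU cs h X ⊓ Fx S) ⊔ (VV cs h X ⊓ Fx S)) :
    k * x * k⁻¹ ∈ (UU cs h X ⊓ Fx S) ⊔ (VV cs h X ⊓ Fx S) := by
  have h1 : (UU cs h X ⊓ Fx S) ⊔ (VV cs h X ⊓ Fx S) ≤
      ((UU cs h X ⊓ Fx S) ⊔ (VV cs h X ⊓ Fx S)).comap (MulAut.conj k).toMonoidHom := by
    refine sup_le (fun v hv => ?_) (fun v hv => ?_)
    · obtain ⟨b, -, c, -, e, h1, h2⟩ := dec_U H hS hk hkF hv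
      have e1 : k * v * k⁻¹ = (k * b * k⁻¹) * (k * c * k⁻¹) := by rw [e]; group
      have h3 : k * v * k⁻¹ ∈ (UU cs h X ⊓ Fx S) ⊔ (VV cs h X ⊓ Fx S) := by
        rw [e1]
        exact mul_mem (Subgroup.mem_sup_left h1) (Subgroup.mem_sup_right h2)
      exact h3
    · obtain ⟨b, -, c, -, e, h1, h2⟩ := dec_V H hS hk hkF hv
      have e1 : k * v * k⁻¹ = (k * b * k⁻¹) * (k * c * k⁻¹) := by rw [e]; group
      have h3 : k * v * k⁻¹ ∈ (UU cs h X ⊓ Fx S) ⊔ (VV cs h X ⊓ Fx S) := by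
        rw [e1]
        exact mul_mem (Subgroup.mem_sup_left h1) (Subgroup.mem_sup_right h2)
      exact h3
  exact h1 hx

/-- **`L` normalises `⟨U ∩ L, U⁻ ∩ L⟩`.** -/
theorem conj_K (hS : ∀ α ∈ S, PFr H α) (hG : GG cs h (TL T) (XL X) = ⊤) {c : Y} (hc : c ∈ Fx S) {x : Y}
    (hx : x ∈ (UU cs h X ⊓ Fx S) ⊔ (VV cs h X ⊓ Fx S)) :
    c * x * c⁻¹ ∈ (UU cs h X ⊓ Fx S) ⊔ (VV cs h X ⊓ Fx S) := by
  obtain ⟨w, u, hu, k, hk, hkF, v, hv, -, rfl⟩ := form H hS hG hc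
  have hu' : u ∈ (UU cs h X ⊓ Fx S) ⊔ (VV cs h X ⊓ Fx S) := Subgroup.mem_sup_left hu
  have hv' : v ∈ (UU cs h X ⊓ Fx S) ⊔ (VV cs h X ⊓ Fx S) := Subgroup.mem_sup_left hv
  have e : u * k * v * x * (u * k * v)⁻¹ = u * (k * (v * x * v⁻¹) * k⁻¹) * u⁻¹ := by group
  rw [e]
  exact mul_mem (mul_mem hu' (conj_rp H hS hk hkF (mul_mem (mul_mem hv' hx) (inv_mem hv')))) (inv_mem hu')

/-! ### Sylow subgroups -/

/-- elements of `L` over `w ≠ 1` move a nontrivial element of `U ∩ L` into `U⁻` -/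
def Move (H : Tow cs h p T n X) (S : Set (MulAut Y)) : Prop :=
  ∀ (w : W) (k : Y), Rp cs H.nsys w k → k ∈ Fx S → w ≠ 1 → ∃ u ∈ UU cs h X ⊓ Fx S, u ≠ 1 ∧ k * u * k⁻¹ ∈ VV cs h X

/-- **The Bruhat form.** -/
theorem formF (hS : ∀ α ∈ S, PFr H α) (hG : GG cs h (TL T) (XL X) = ⊤) (hmv : Move H S) :
    Cfsg.Agent.BpExc.NSol.Form (Fx S) (UU cs h X) (VV cs h X) (NGL H) (TL T) where
  form g hg := by
    obtain ⟨w, u, hu, k, hk, hkF, v, hv, hkv, e⟩ := form H hS hG hg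
    exact ⟨u, hu, k, ⟨⟨w, hk⟩, hkF⟩, v, hv, hkv, e⟩
  inf := by
    rw [eq_bot_iff]
    rintro x ⟨h1, h2⟩
    exact Subgroup.mem_bot.2 (eq_one_of_pos_neg H h1 h2)
  move := by
    rintro k ⟨⟨w, hk⟩, hkF⟩ hn
    refine hmv w k hk hkF ?_
    rintro rfl
    exact hn hk.mem_of_one
  norm := by
    rintro k ⟨hk, -⟩ u hu
    exact (Subgroup.mem_normalizer_iff.1 (H.T_le_normalizer (S := RGD.Pos cs h) (fun x hx => hx.1) hk) u).1 hu.1

include H in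
theorem isPGroup_UU : IsPGroup p ↥(UU cs h X) := by
  rintro ⟨u, hu⟩
  obtain ⟨j, hj⟩ := H.mem_Sup.1 hu
  obtain ⟨m, hm⟩ := (H.rgd j).isPGroup_of_pos (S := RGD.Pos cs h) (fun a ha => ha) ⟨u, hj⟩
  refine ⟨m, Subtype.ext ?_⟩
  exact congrArg (fun z : ↥(RGD.Sup (X j) (RGD.Pos cs h)) => (z : Y)) hm

include H in
omit [Finite W] in
/-- torus elements of `p`-power order -/
theorem tor_eq_one [Fact p.Prime] {t : Y} (ht : t ∈ TL T) {m : ℕ} (hm : t ^ p ^ m = 1) : t = 1 := by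
  obtain ⟨j, hj⟩ := H.mem_TL.1 ht
  have h6 : orderOf t ∣ Nat.card ↥(T j) := by
    have := orderOf_dvd_natCard (⟨t, hj⟩ : ↥(T j))
    rwa [Subgroup.orderOf_mk] at this
  have h7 : orderOf t = 1 :=
    Nat.eq_one_of_dvd_coprimes (Nat.Coprime.pow_right m (H.rgd j).tcop) h6 (orderOf_dvd_of_pow_eq_one hm)
  exact orderOf_eq_one_iff.1 h7

include H in
omit [Finite W] in
theorem coprime_TL [Fact p.Prime] [Finite ↥(Fx S)] : (Nat.card ↥(TL T ⊓ Fx S)).Coprime p := by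
  have hpp : p.Prime := Fact.out
  have hfin : Finite ↥(TL T ⊓ Fx S) :=
    Finite.of_injective (Subgroup.inclusion inf_le_right) (Subgroup.inclusion_injective _)
  rw [Nat.coprime_comm, Nat.Prime.coprime_iff_not_dvd hpp]
  intro hdvd
  obtain ⟨x, hx⟩ := exists_prime_orderOf_dvd_card' p hdvd
  have h1 : (x : Y) ^ p ^ 1 = 1 := by
    rw [pow_one]
    have h1 := pow_orderOf_eq_one x
    rw [hx] at h1
    exact congrArg Subtype.val h1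
  have h2 := tor_eq_one H x.2.1 h1
  have h3 : x = 1 := Subtype.ext h2
  rw [h3, orderOf_one] at hx
  exact hpp.one_lt.ne hx

/-- **`U ∩ L` is a Sylow subgroup of `L`.** -/
theorem exists_sylow [Fact p.Prime] [Finite ↥(Fx S)] (hS : ∀ α ∈ S, PFr H α) (hG : GG cs h (TL T) (XL X) = ⊤)
    (hmv : Move H S) : ∃ P : Sylow p ↥(Fx S), (P : Subgroup ↥(Fx S)) = (UU cs h X).subgroupOf (Fx S) :=
  (formF H hS hG hmv).exists_sylow ((isPGroup_UU H).comap_subtype) (coprime_TL H)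

/-- **`N_L(U ∩ L) = (U ∩ L) T_L`.** -/
theorem mem_of_normalizer (hS : ∀ α ∈ S, PFr H α) (hG : GG cs h (TL T) (XL X) = ⊤) (hmv : Move H S) {g : Y}
    (hg : g ∈ Fx S) (hn : ∀ u ∈ UU cs h X ⊓ Fx S, g * u * g⁻¹ ∈ UU cs h X) :
    ∃ u ∈ UU cs h X ⊓ Fx S, ∃ t ∈ TL T ⊓ Fx S, g = u * t :=
  (formF H hS hG hmv).mem_sup hg hn

/-- **`O_p(K) = 1`.** -/
theorem core [Fact p.Prime] [Finite ↥(Fx S)] (hS : ∀ α ∈ S, PFr H α) (hG : GG cs h (TL T) (XL X) = ⊤)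
    (hmv : Move H S) {K : Subgroup Y} (hK : K ≤ Fx S) (hU : UU cs h X ⊓ Fx S ≤ K) {w₀ : W} {k₀ : Y}
    (hk₀ : Rp cs H.nsys w₀ k₀) (hkK : k₀ ∈ K) (hw₀ : ∀ a, IsRoot cs h a → 0 ≤ a → rep cs h w₀ a ≤ 0) :
    Cfsg.pCore p ↥K = ⊥ := by
  obtain ⟨P, hP⟩ := exists_sylow H hS hG hmv
  set O := Cfsg.pCore p ↥K with hO
  have hOn : O.Normal := Cfsg.Agent.Lib.Cores.pCore_normal p
  have hOp : IsPGroup p O := Cfsg.Agent.Lib.Cores.pCore_isPGroup p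
  set U := (UU cs h X).subgroupOf K with hUdef
  have hUp : IsPGroup p U := (isPGroup_UU H).comap_subtype
  have h1 : IsPGroup p (O ⊔ U : Subgroup ↥K) := hOp.to_sup_of_normal_left hUp
  -- in `L`
  have h2 : IsPGroup p ((O ⊔ U : Subgroup ↥K).map (Subgroup.inclusion hK)) := h1.map _
  have h3 : (P : Subgroup ↥(Fx S)) ≤ (O ⊔ U : Subgroup ↥K).map (Subgroup.inclusion hK) := by
    rw [hP]
    intro x hx
    rw [Subgroup.mem_subgroupOf] at hx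
    refine ⟨⟨x, hU ⟨hx, x.2⟩⟩, Subgroup.mem_sup_right ?_, rfl⟩
    exact Subgroup.mem_subgroupOf.2 hx
  have h4 : (O ⊔ U : Subgroup ↥K).map (Subgroup.inclusion hK) = P := P.is_maximal' h2 h3
  have h5 : ∀ x ∈ O, (x : Y) ∈ UU cs h X := by
    intro x hx
    have h6 : Subgroup.inclusion hK x ∈ (O ⊔ U : Subgroup ↥K).map (Subgroup.inclusion hK) :=
      ⟨x, Subgroup.mem_sup_left hx, rfl⟩
    rw [h4, hP] at h6
    exact h6
  rw [eq_bot_iff]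
  intro x hx
  have h6 : (⟨k₀, hkK⟩ : ↥K) * x * (⟨k₀, hkK⟩ : ↥K)⁻¹ ∈ O := hOn.conj_mem x hx _
  have h7 : k₀ * (x : Y) * k₀⁻¹ ∈ UU cs h X := h5 _ h6
  have h8 : k₀ * (x : Y) * k₀⁻¹ ∈ VV cs h X :=
    conj_SupL H hk₀ (S := RGD.Pos cs h) (S' := Neg cs h) (fun a ha => ha.1)
      (fun a ha => ⟨ha.1.act _, hw₀ a ha.1 ha.2⟩) (h5 x hx)
  have h9 := eq_one_of_pos_neg H h7 h8
  rw [conj_eq_one_iff] at h9
  rw [Subgroup.mem_bot]
  exact Subtype.ext h9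

/-! ### the base pair -/

open Cfsg.Agent.H398.RG (Base) in
/-- **The base pair.** -/
theorem base [Fact p.Prime] (hp2 : p ≠ 2) [Finite ↥(Fx S)] (hS : ∀ α ∈ S, PFr H α)
    (hG : GG cs h (TL T) (XL X) = ⊤) (hmv : Move H S) {a₀ : I → ℤ} (ha₀ : IsRoot cs h a₀) (hpos : 0 ≤ a₀)
    (hcU : ∀ u ∈ UU cs h X, ∀ x ∈ XL X a₀, u * x = x * u)
    (hcV : ∀ u ∈ VV cs h X, ∀ x ∈ XL X (-a₀), u * x = x * u)
    (hne : XL X a₀ ⊓ Fx S ≠ ⊥)
    (hpair : ∀ w : W, rep cs h w a₀ ≠ -a₀ → IsPGroup p ↥(XL X a₀ ⊔ XL X (rep cs h w a₀) : Subgroup Y))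
    {w₁ : W} {n₁ : Y} (hn₁ : Rp cs H.nsys w₁ n₁) (hn₁m : n₁ ∈ (XL X a₀ ⊓ Fx S) ⊔ (XL X (-a₀) ⊓ Fx S))
    (hw₁ : rep cs h w₁ a₀ = -a₀)
    {w₀ : W} {k₀ : Y} (hk₀ : Rp cs H.nsys w₀ k₀) (hkK : k₀ ∈ (UU cs h X ⊓ Fx S) ⊔ (VV cs h X ⊓ Fx S) ⊔ (TL T ⊓ Fx S))
    (hw₀ : ∀ a, IsRoot cs h a → 0 ≤ a → rep cs h w₀ a ≤ 0) :
    Base p ((UU cs h X ⊓ Fx S) ⊔ (VV cs h X ⊓ Fx S) ⊔ (TL T ⊓ Fx S)) (XL X a₀ ⊓ Fx S) (XL X (-a₀) ⊓ Fx S)
      (UU cs h X ⊓ Fx S) (VV cs h X ⊓ Fx S) (TL T ⊓ Fx S) := by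
  set L := Fx S with hL
  set K := (UU cs h X ⊓ L) ⊔ (VV cs h X ⊓ L) ⊔ (TL T ⊓ L) with hK
  have hXU : XL X a₀ ≤ UU cs h X := RGD.le_Sup (S := RGD.Pos cs h) ⟨ha₀, hpos⟩
  have hXV : XL X (-a₀) ≤ VV cs h X := RGD.le_Sup (S := Neg cs h) ⟨ha₀.neg, neg_nonpos.2 hpos⟩
  have hPK : UU cs h X ⊓ L ≤ K := le_sup_left.trans le_sup_left
  have hQK : VV cs h X ⊓ L ≤ K := le_sup_right.trans le_sup_left
  have hTK : TL T ⊓ L ≤ K := le_sup_right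
  have hKL : K ≤ L := sup_le (sup_le inf_le_right inf_le_right) inf_le_right
  have hXK : XL X a₀ ⊓ L ≤ K := (inf_le_inf_right _ hXU).trans hPK
  have hYK : XL X (-a₀) ⊓ L ≤ K := (inf_le_inf_right _ hXV).trans hQK
  have hn₁K : n₁ ∈ K := (sup_le hXK hYK) hn₁m
  -- conjugates of `X`
  have hcj : ∀ (w : W) (k : Y), Rp cs H.nsys w k → k ∈ L →
      Cfsg.Agent.H398.RG.cj k (XL X a₀ ⊓ L) = XL X (rep cs h w a₀) ⊓ L := by
    intro w k hk hkL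
    ext y
    rw [Cfsg.Agent.H398.RG.mem_cj, Subgroup.mem_inf, Subgroup.mem_inf, ← H.conj_rp hk ha₀]
    constructor
    · rintro ⟨h1, h2⟩
      refine ⟨mem_cj.2 h1, ?_⟩
      have e : y = k * (k⁻¹ * y * k) * k⁻¹ := by group
      rw [e]
      exact mul_mem (mul_mem hkL h2) (inv_mem hkL)
    · rintro ⟨h1, h2⟩
      exact ⟨mem_cj.1 h1, mul_mem (mul_mem (inv_mem hkL) h2) hkL⟩
  have hcjU : ∀ u ∈ UU cs h X ⊓ L, Cfsg.Agent.H398.RG.cj u (XL X a₀ ⊓ L) = XL X a₀ ⊓ L := by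
    intro u hu
    ext y
    rw [Cfsg.Agent.H398.RG.mem_cj]
    constructor
    · intro h1
      have h2 := hcU u hu.1 _ h1.1
      have e : y = u⁻¹ * y * u := by
        have e1 : u * (u⁻¹ * y * u) * u⁻¹ = u⁻¹ * y * u := by rw [h2]; group
        have e2 : u * (u⁻¹ * y * u) * u⁻¹ = y := by group
        rw [← e1, e2]
      rw [e]
      exact h1
    · intro h1
      have h2 := hcU u hu.1 _ h1.1
      have e : u⁻¹ * y * u = y := by rw [mul_assoc, ← h2]; group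
      rw [e]
      exact h1
  refine ⟨hXK, hPK, hQK, hTK, le_rfl, ?_, ?_, ?_, ?_, hne, ?_, ?_, ?_, ?_⟩
  · intro g hg x hx
    have e : g * x * g⁻¹ = x := by rw [hcU g hg.1 x hx.1]; group
    rw [e]
    exact hx
  · intro g hg x hx
    have e : g * x * g⁻¹ = x := by rw [hcV g hg.1 x hx.1]; group
    rw [e]
    exact hx
  · intro g hg x hx
    have h1 := hcj 1 g (rp_of_mem hg.1) hg.2
    rw [map_one, Module.End.one_apply] at h1
    rw [← h1]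
    exact Cfsg.Agent.H398.RG.conj_mem_cj' hx
  · exact (isPGroup_UU H).to_le (inf_le_left.trans hXU)
  · -- not a `p`-group
    intro hpg
    obtain ⟨m, hm⟩ := hpg ⟨n₁, hn₁m⟩
    have hm' : n₁ ^ p ^ m = 1 := congrArg (fun z : ↥((XL X a₀ ⊓ L) ⊔ (XL X (-a₀) ⊓ L) : Subgroup Y) => (z : Y)) hm
    have h2 : ∀ j : ℕ, Rp cs H.nsys (w₁ ^ j) (n₁ ^ j) := by
      intro j
      induction j with
      | zero => rw [pow_zero, pow_zero]; exact rp_one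
      | succ j ih => rw [pow_succ, pow_succ]; exact ih.mul hn₁
    have h3 := h2 (p ^ m)
    rw [hm'] at h3
    have h4 : w₁ ^ p ^ m = 1 := rpL_unique H h3 rp_one
    have hodd : Odd (p ^ m) := ((Fact.out : p.Prime).odd_of_ne_two hp2).pow
    have h5 : ∀ j : ℕ, rep cs h (w₁ ^ (2 * j + 1)) a₀ = -a₀ := by
      intro j
      induction j with
      | zero => simpa using hw₁
      | succ j ih =>
        have e : w₁ ^ (2 * (j + 1) + 1) = w₁ * (w₁ * w₁ ^ (2 * j + 1)) := by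
          rw [show 2 * (j + 1) + 1 = (2 * j + 1) + 1 + 1 by ring, pow_succ', pow_succ']
        rw [e, rep_mul_apply, rep_mul_apply, ih, map_neg, hw₁, neg_neg, hw₁]
    obtain ⟨j, hj⟩ := hodd
    have h6 := h5 j
    rw [← hj, h4, map_one, Module.End.one_apply] at h6
    have h7 : a₀ = 0 := by
      funext i
      have := congrFun h6 i
      simp only [Pi.neg_apply] at this
      simp only [Pi.zero_apply]
      omega
    exact ha₀.ne_zero h7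
  · exact ⟨n₁, hn₁K, by rw [hcj w₁ n₁ hn₁ (hKL hn₁K), hw₁]⟩
  · intro g hg
    obtain ⟨w, u, hu, k, hk, hkF, v, hv, -, e⟩ := form H hS hG (hKL hg)
    have h1 : Cfsg.Agent.H398.RG.cj g (XL X a₀ ⊓ L) =
        Cfsg.Agent.H398.RG.cj u (XL X (rep cs h w a₀) ⊓ L) := by
      rw [e, mul_assoc, Cfsg.Agent.H398.RG.cj_mul, Cfsg.Agent.H398.RG.cj_mul, hcjU v hv, hcj w k hk hkF]
    by_cases hw : rep cs h w a₀ = -a₀
    · right
      refine ⟨u⁻¹, inv_mem (hPK hu), hcjU _ (inv_mem hu), ?_⟩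
      rw [h1, hw, ← Cfsg.Agent.H398.RG.cj_mul, inv_mul_cancel, Cfsg.Agent.H398.RG.cj_one]
    · left
      have h2 := hpair w hw
      have h3 : IsPGroup p ↥(Cfsg.Agent.H398.RG.cj u ((XL X a₀ ⊓ L) ⊔ (XL X (rep cs h w a₀) ⊓ L))) :=
        Cfsg.Agent.H398.RG.isPGroup_cj (h2.to_le (sup_le_sup inf_le_left inf_le_left))
      rw [Cfsg.Agent.H398.RG.cj_sup, hcjU u hu] at h3
      rw [h1]
      exact h3
  · exact core H hS hG hmv hKL hPK hk₀ hkK hw₀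

end Cfsg.Agent.H85.RGT
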