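import Cfsg.Agent.H85.RGT.Six

/-!
# S3509, `E₆(k)`: the base pair of the centraliser of a graph involution (helper85)

`L = Fx {φ, τ}` (see `Six.lean`).

* `move` : the elements of `L` over `w ≠ 1` move a nontrivial element of `U ∩ L` into `U⁻`;
* `base6` : the base pair `H398.RG.Base` of `⟨U ∩ L, U⁻ ∩ L, T_L⟩`;
* `zz_mem` : `zz s c ∈ MK K X` if the coefficient of `s` at `α₂` is odd;
* `cond6` : `H398.RG.Cond`.
-/

set_option autoImplicit false
set_option linter.unusedSectionVars false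

namespace Cfsg.Agent.H85.RGT.Six

open CoxeterSystem Cfsg Cfsg.Lie Cfsg.Lie.ChevalleyDatum
open Cfsg.Agent.ChevalleyStructure Cfsg.Agent.ChevalleyStructure.Elts Cfsg.Agent.ChevalleyStructure.CoxeterGeom
  Cfsg.Agent.ChevalleyStructure.NPerm Cfsg.Agent.ChevalleyStructure.NConj
open Cfsg.Agent.Tits.Roots Cfsg.Agent.Tits.Core Cfsg.Agent.Tits.RootComb Cfsg.Agent.Nodes.Reps Cfsg.Agent.Nodes.BNOf
  Cfsg.Agent.Nodes.RGDChev Cfsg.Agent.Nodes.Bruhat Cfsg.Agent.Nodes.NormalForm
open Cfsg.Agent.KFacts.RgdField Cfsg.Agent.KFacts.RgdChevCoord Cfsg.Agent.CpAut.RgdUntw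
open Cfsg.Agent.BpExc Cfsg.Agent.BpExc.TorCent Cfsg.Agent.BpExc.Tow Cfsg.Agent.BpExc.TowChev Cfsg.Agent.BpExc.Fr
  Cfsg.Agent.BpExc.FamField Cfsg.Agent.BpExc.FamUntw Cfsg.Agent.BpExc.FamInst Cfsg.Agent.BpExc.RowsUntw
open Cfsg.Agent.BpExc.FamTw.Gr (gr gr_xg xg coe_gr coe_xg gr_mul_fld)
open Cfsg.Agent.ChevalleyStructure.GraphSymm (symmE6)
open Cfsg.Agent.H28.RG Cfsg.Agent.H441.RG
open Cfsg.Agent.H398.RG (Base Cond MK)

universe u

variable {k : Type u} [Field k] [IsAlgClosed k] (hk : LocFin k) (r : ℕ) [Fact r.Prime] [CharP k r] [PerfectRing k r]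
  {m : ℕ} {ε : kˣ} {t : ↥(chevE6.group k)}

/-- `U` -/
noncomputable abbrev U6 (k : Type u) [Field k] : Subgroup ↥(chevE6.group k) := UU cs6 e6T.isCartan (Xj e6T (k := k))

/-- `U⁻` -/
noncomputable abbrev V6 (k : Type u) [Field k] : Subgroup ↥(chevE6.group k) := VV cs6 e6T.isCartan (Xj e6T (k := k))

include hk in
theorem U6_eq : U6 k = RGD.Sup (XX chevE6 6 k) (RGD.Pos cs6 e6T.isCartan) := by
  unfold U6 UU
  rw [XL6 hk]

include hk in
theorem V6_eq : V6 k = RGD.Sup (XX chevE6 6 k) (Cfsg.Agent.Nodes.OppDec.Neg cs6 e6T.isCartan) := by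
  unfold V6 VV
  rw [XL6 hk]

/-! ### conjugation by representatives -/

/-- the image of a root -/
theorem exists_img (w : CoxeterMatrix.E₆.Group) (s : Fin 72) : ∃ s' : Fin 72, vc s'.val = rep cs6 e6T.isCartan w (vc s.val) :=
  exists_vc ((isRoot_vc s.2).act w)

theorem conj_xe {w : CoxeterMatrix.E₆.Group} {g : ↥(chevE6.group k)} (hg : Rp cs6 (tw6 hk r).nsys w g) {s s' : Fin 72}
    (e : vc s'.val = rep cs6 e6T.isCartan w (vc s.val)) (c : k) : ∃ c', g * xe s.val c * g⁻¹ = xe s'.val c' := by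
  have h1 := (tw6 hk r).conj_rp hg (isRoot_vc s.2)
  rw [← e, XL6 hk] at h1
  have h2 : g * xe s.val c * g⁻¹ ∈ cj g (XX chevE6 6 k (vc s.val)) := conj_mem_cj.2 ((mem_XX s.2).2 ⟨c, rfl⟩)
  rw [h1] at h2
  exact (mem_XX s'.2).1 h2

/-- a negative image -/
theorem conj_V {w : CoxeterMatrix.E₆.Group} {g : ↥(chevE6.group k)} (hg : Rp cs6 (tw6 hk r).nsys w g) {s : Fin 72}
    (h : rep cs6 e6T.isCartan w (vc s.val) ≤ 0) (c : k) : g * xe s.val c * g⁻¹ ∈ V6 k := by
  obtain ⟨s', e⟩ := exists_img w s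
  obtain ⟨c', hc'⟩ := conj_xe hk r hg e c
  rw [hc']
  refine xe_V hk ?_ _
  rw [← e] at h
  exact (nonpos_iff s'.2).1 h

theorem rt_pos_or (w : CoxeterMatrix.E₆.Group) (s : Fin 72) : 0 ≤ rep cs6 e6T.isCartan w (vc s.val) ∨
    rep cs6 e6T.isCartan w (vc s.val) ≤ 0 := ((isRoot_vc s.2).act w).pos_or_neg

theorem one_pow_eq : (1 : k) ^ r ^ m = 1 := one_pow _

/-- a root which is not fixed and becomes negative -/
theorem move_mov (D : TD k r m ε t) {w : CoxeterMatrix.E₆.Group} {g : ↥(chevE6.group k)}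
    (hg : Rp cs6 (tw6 hk r).nsys w g) (hgL : g ∈ Fx (SS k r m t)) {s : Fin 72} (hs : 36 ≤ s.val) (hm : rh s ≠ s)
    (h : rep cs6 e6T.isCartan w (vc s.val) ≤ 0) : ∃ u ∈ U6 k ⊓ Fx (SS k r m t), u ≠ 1 ∧ g * u * g⁻¹ ∈ V6 k := by
  refine ⟨zz t s.val 1, ⟨zz_U hk r D hs 1, zz_L r D hm (one_pow_eq r)⟩, zz_ne r D hm one_ne_zero, ?_⟩
  have h1 := conj_V hk r hg h (1 : k)
  have h2 := (pfr_tau hk r D.mem).neg _ h1
  have h3 : tau t g = g := (mem_L r).1 hgL |>.2
  rw [map_mul, map_mul, map_inv, h3] at h2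
  have e : g * zz t s.val 1 * g⁻¹ = (g * xe s.val 1 * g⁻¹) * (g * tau t (xe s.val 1) * g⁻¹) := by
    unfold zz; group
  rw [e]
  exact mul_mem h1 h2

/-- a fixed root with `τ` trivial on the root group which becomes negative -/
theorem move_fix (D : TD k r m ε t) {w : CoxeterMatrix.E₆.Group} {g : ↥(chevE6.group k)}
    (hg : Rp cs6 (tw6 hk r).nsys w g) {s : Fin 72} (hs : 36 ≤ s.val) (hm : rh s = s)
    (he : ε = 1 ∨ Even (vc s.val 1))
    (h : rep cs6 e6T.isCartan w (vc s.val) ≤ 0) : ∃ u ∈ U6 k ⊓ Fx (SS k r m t), u ≠ 1 ∧ g * u * g⁻¹ ∈ V6 k := by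
  refine ⟨xe s.val 1, ⟨xe_U hk s.2 hs 1, xe_L r D hm he (one_pow_eq r)⟩, ?_, conj_V hk r hg h 1⟩
  rw [Ne, xe_eq_one s.2]
  exact one_ne_zero

/-- the image of a fixed root with `τ` trivial on the root group -/
theorem img_fix (hr2 : r ≠ 2) (D : TD k r m ε t) {w : CoxeterMatrix.E₆.Group} {g : ↥(chevE6.group k)}
    (hg : Rp cs6 (tw6 hk r).nsys w g) (hgL : g ∈ Fx (SS k r m t)) {s s' : Fin 72} (hm : rh s = s)
    (he : ε = 1 ∨ Even (vc s.val 1)) (e : vc s'.val = rep cs6 e6T.isCartan w (vc s.val)) :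
    rh s' = s' ∧ (ε = 1 ∨ Even (vc s'.val 1)) := by
  obtain ⟨c, hc⟩ := conj_xe hk r hg e (1 : k)
  have hL : xe s'.val c ∈ Fx (SS k r m t) := by
    rw [← hc]
    exact mul_mem (mul_mem hgL (xe_L r D hm he (one_pow_eq r))) (inv_mem hgL)
  have hc0 : c ≠ 0 := by
    rintro rfl
    rw [xe_zero, conj_eq_one_iff, xe_eq_one s.2] at hc
    exact one_ne_zero hc
  have h1 := ((mem_L r).1 hL).2
  rw [tau_xe r D] at h1
  have h2 : rh s' = s' := by
    by_contra hne
    exact hc0 (eq_zero_of_eq s'.2 (rh s').2 (fun e => hne (Fin.ext e).symm) h1.symm)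
  refine ⟨h2, ?_⟩
  rw [h2] at h1
  have h3 := xe_inj s'.2 h1
  have h4 : sc (k := k) ε s' = 1 := mul_right_cancel₀ hc0 (by rw [h3, one_mul])
  unfold sc at h4
  rw [h2, se_fix s' h2, Int.cast_one, mul_one] at h4
  by_contra hcon
  push Not at hcon
  obtain ⟨h5, h6⟩ := hcon
  have h7 : ε = -1 := by
    rcases mul_self_eq_one_iff.1 (by rw [← Units.val_mul, D.eps, Units.val_one] : (ε : k) * ε = 1) with h | h
    · exact absurd (Units.ext h) h5
    · exact Units.ext h
  rw [h7, Odd.neg_one_zpow (Int.not_even_iff_odd.1 h6)] at h4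
  have h8 : (2 : k) = 0 := by
    have h9 : (-1 : k) = 1 := h4
    linear_combination -h9
  have h9 : (r : ℕ) ∣ 2 := (CharP.cast_eq_zero_iff k r 2).1 (by exact_mod_cast h8)
  exact hr2 ((Nat.prime_dvd_prime_iff_eq Fact.out Nat.prime_two).1 h9)

/-- the height -/
def hgt (v : Fin 6 → ℤ) : ℤ := ∑ i, v i

theorem hgt_add (v w : Fin 6 → ℤ) : hgt (v + w) = hgt v + hgt w := by
  unfold hgt
  rw [← Finset.sum_add_distrib]
  rfl

/-- **(2)** -/
theorem move (hr2 : r ≠ 2) (D : TD k r m ε t) : Move (tw6 hk r) (SS k r m t) := by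
  intro w g hg hgL hw
  by_contra hcon
  -- the images of the roots
  have hmov : ∀ s : Fin 72, 36 ≤ s.val → rh s ≠ s → 0 ≤ rep cs6 e6T.isCartan w (vc s.val) := by
    intro s hs hm
    rcases rt_pos_or w s with h | h
    · exact h
    · exact absurd (move_mov hk r D hg hgL hs hm h) hcon
  have hfix : ∀ s : Fin 72, 36 ≤ s.val → rh s = s → (ε = 1 ∨ Even (vc s.val 1)) →
      0 ≤ rep cs6 e6T.isCartan w (vc s.val) := by
    intro s hs hm he
    rcases rt_pos_or w s with h | h
    · exact h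
    · exact absurd (move_fix hk r D hg hs hm he h) hcon
  -- it suffices to treat the simple roots
  have hsimple : ∀ i : Fin 6, 0 ≤ rep cs6 e6T.isCartan w (sr i) := by
    intro i
    rw [← vec_simple e6T i]
    have hlt := simple_lt6 i
    by_cases h3 : i = 3
    · subst h3
      exact hfix 39 (by decide) (by decide +kernel) (Or.inr (by decide +kernel))
    by_cases h1 : i = 1
    · subst h1
      by_cases hε : ε = 1
      · exact hfix 46 (by decide) (by decide +kernel) (Or.inl hε)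
      -- the chain
      have key : ∀ s : Fin 72, 36 ≤ s.val → rh s = s → Even (vc s.val 1) → ∃ s' : Fin 72, 36 ≤ s'.val ∧
          s'.val ∈ [39, 44, 60, 71] ∧ vc s'.val = rep cs6 e6T.isCartan w (vc s.val) := by
        intro s hs hm he
        obtain ⟨s', e⟩ := exists_img w s
        obtain ⟨a1, a2⟩ := img_fix hk r hr2 D hg hgL hm (Or.inr he) e
        have a3 : 36 ≤ s'.val := (nonneg_iff s'.2).1 (by rw [e]; exact hfix s hs hm (Or.inr he))
        have a4 : Even (vc s'.val 1) := by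
          rcases a2 with a2 | a2
          · exact absurd a2 hε
          · exact a2
        exact ⟨s', a3, even_fix s' a3 a1 a4, e⟩
      have hp : ∀ s : Fin 72, 36 ≤ s.val → rh s ≠ s → 0 < hgt (rep cs6 e6T.isCartan w (vc s.val)) := by
        intro s hs hm
        obtain ⟨s', e⟩ := exists_img w s
        rw [← e]
        exact ht_pos s' ((nonneg_iff s'.2).1 (by rw [e]; exact hmov s hs hm))
      obtain ⟨m1, m2, m3, m4, m5, m6, -⟩ := mov_vals
      obtain ⟨v1, v2, v3, v4⟩ := vc_rel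
      obtain ⟨t1, t2, t3, t4⟩ := ht_vals
      obtain ⟨s1, -, b1, e1⟩ := key 39 (by decide) (by decide +kernel) (by decide +kernel)
      obtain ⟨s2, -, b2, e2⟩ := key 44 (by decide) (by decide +kernel) (by decide +kernel)
      obtain ⟨s3, -, b3, e3⟩ := key 60 (by decide) (by decide +kernel) (by decide +kernel)
      obtain ⟨s4, -, b4, e4⟩ := key 71 (by decide) (by decide +kernel) (by decide +kernel)
      have p42 := hp 42 (by decide) m1
      have p37 := hp 37 (by decide) m2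
      have p56 := hp 56 (by decide) m3
      have p36 := hp 36 (by decide) m4
      have p50 := hp 50 (by decide) m5
      have p48 := hp 48 (by decide) m6
      have q2 := congrArg hgt (congrArg (rep cs6 e6T.isCartan w) v1)
      have q3 := congrArg hgt (congrArg (rep cs6 e6T.isCartan w) v2)
      have q4 := congrArg hgt (congrArg (rep cs6 e6T.isCartan w) v3)
      rw [map_add, map_add, hgt_add, hgt_add] at q2 q3 q4
      have f1 : hgt (rep cs6 e6T.isCartan w (vc 39)) = hgt (vc s1.val) := by rw [e1]; rfl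
      have f2 : hgt (rep cs6 e6T.isCartan w (vc 44)) = hgt (vc s2.val) := by rw [e2]; rfl
      have f3 : hgt (rep cs6 e6T.isCartan w (vc 60)) = hgt (vc s3.val) := by rw [e3]; rfl
      have f4 : hgt (rep cs6 e6T.isCartan w (vc 71)) = hgt (vc s4.val) := by rw [e4]; rfl
      have hv : ∀ s : Fin 72, s.val ∈ [39, 44, 60, 71] → (s.val = 39 ∧ hgt (vc s.val) = 1) ∨ (s.val = 44 ∧ hgt (vc s.val) = 3) ∨
          (s.val = 60 ∧ hgt (vc s.val) = 5) ∨ (s.val = 71 ∧ hgt (vc s.val) = 11) := by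
        intro s hs
        simp only [List.mem_cons, List.not_mem_nil, or_false] at hs
        rcases hs with hs | hs | hs | hs
        · exact Or.inl ⟨hs, by rw [hs]; exact t1⟩
        · exact Or.inr (Or.inl ⟨hs, by rw [hs]; exact t2⟩)
        · exact Or.inr (Or.inr (Or.inl ⟨hs, by rw [hs]; exact t3⟩))
        · exact Or.inr (Or.inr (Or.inr ⟨hs, by rw [hs]; exact t4⟩))
      have g1 := hv s1 b1
      have g2 := hv s2 b2
      have g3 := hv s3 b3
      have g4 := hv s4 b4
      have k12 : hgt (vc s1.val) < hgt (vc s2.val) := by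
        rw [← f1, ← f2, q2]
        have a1 : 0 < hgt (rep cs6 e6T.isCartan w (vc 42)) := p42
        have a2 : 0 < hgt (rep cs6 e6T.isCartan w (vc 37)) := p37
        omega
      have k23 : hgt (vc s2.val) < hgt (vc s3.val) := by
        rw [← f2, ← f3, q3]
        have a1 : 0 < hgt (rep cs6 e6T.isCartan w (vc 56)) := p56
        have a2 : 0 < hgt (rep cs6 e6T.isCartan w (vc 36)) := p36
        omega
      have k34 : hgt (vc s3.val) < hgt (vc s4.val) := by
        rw [← f3, ← f4, q4]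
        have a1 : 0 < hgt (rep cs6 e6T.isCartan w (vc 50)) := p50
        have a2 : 0 < hgt (rep cs6 e6T.isCartan w (vc 48)) := p48
        omega
      have c1 : s1.val = 39 := by omega
      have c2 : s2.val = 44 := by omega
      have c3 : s3.val = 60 := by omega
      have c4 : s4.val = 71 := by omega
      rw [c1] at e1
      rw [c2] at e2
      rw [c3] at e3
      rw [c4] at e4
      have q := congrArg (rep cs6 e6T.isCartan w) v4
      rw [map_add, map_add, map_add, map_add] at q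
      have e1' : rep cs6 e6T.isCartan w (vc 39) = vc 39 := e1.symm
      have e2' : rep cs6 e6T.isCartan w (vc 44) = vc 44 := e2.symm
      have e3' : rep cs6 e6T.isCartan w (vc 60) = vc 60 := e3.symm
      have e4' : rep cs6 e6T.isCartan w (vc 71) = vc 71 := e4.symm
      rw [e1', e2', e3', e4', v4] at q
      have h46 : rep cs6 e6T.isCartan w (vc 46) = vc 46 := by
        funext i
        have := congrFun q i
        simp only [Pi.add_apply] at this
        omega
      show 0 ≤ rep cs6 e6T.isCartan w (vc 46)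
      rw [h46]
      exact fun i => vc_pos 46 (by decide) i
    · exact hmov ⟨chevE6.simple i, hlt⟩ (by
        have := simple_six i
        simp only [List.mem_cons, List.not_mem_nil, or_false] at this
        show 36 ≤ chevE6.simple i
        omega) (simple_rh i h1 h3 ⟨chevE6.simple i, hlt⟩ rfl)
  -- hence `w = 1`
  exact hw (eq_one_of_nonneg cs6 e6T.isCartan w hsimple)

end Cfsg.Agent.H85.RGT.Six
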