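import Cfsg.Agent.H85.RGT.SixB
import Cfsg.Agent.BpExc.Sig

/-!
# S3509, `E₆(k)`: the base pair of the centraliser of a graph involution, the end (helper85)

* `base6` : `Base r K X Y P Q T_L`;
* `zz_mem` : `zz s c ∈ MK K X` if the coefficient of `s` at `α₂` is odd;
* `cond6` : `Cond K X Y`.
-/

set_option autoImplicit false
set_option linter.unusedSectionVars false

namespace Cfsg.Agent.H85.RGT.Six

open CoxeterSystem Cfsg Cfsg.Lie Cfsg.Lie.ChevalleyDatum
open Cfsg.Agent.ChevalleyStructure Cfsg.Agent.ChevalleyStructure.Elts Cfsg.Agent.ChevalleyStructure.CoxeterGeom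
  Cfsg.Agent.ChevalleyStructure.NPerm Cfsg.Agent.ChevalleyStructure.NConj
open Cfsg.Agent.Tits.Roots Cfsg.Agent.Tits.Core Cfsg.Agent.Tits.RootComb Cfsg.Agent.Nodes.Reps Cfsg.Agent.Nodes.BNOf
  Cfsg.Agent.Nodes.RGDChev Cfsg.Agent.Nodes.Bruhat Cfsg.Agent.Nodes.NormalForm
open Cfsg.Agent.KFacts.RgdField Cfsg.Agent.KFacts.RgdChevCoord Cfsg.Agent.CpAut.RgdUntw
open Cfsg.Agent.BpExc Cfsg.Agent.BpExc.TorCent Cfsg.Agent.BpExc.Tow Cfsg.Agent.BpExc.TowChev Cfsg.Agent.BpExc.Fr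
  Cfsg.Agent.BpExc.FamField Cfsg.Agent.BpExc.FamUntw Cfsg.Agent.BpExc.FamInst Cfsg.Agent.BpExc.RowsUntw
open Cfsg.Agent.BpExc.FamTw.Gr (gr gr_xg xg coe_gr coe_xg gr_mul_fld)
open Cfsg.Agent.ChevalleyStructure.GraphSymm (symmE6)
open Cfsg.Agent.H28.RG Cfsg.Agent.H441.RG
open Cfsg.Agent.H398.RG (Base Cond MK)

universe u

variable {k : Type u} [Field k] [IsAlgClosed k] (hk : LocFin k) (r : ℕ) [Fact r.Prime] [CharP k r] [PerfectRing k r]
  {m : ℕ} {ε : kˣ} {t : ↥(chevE6.group k)}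

/-! ### the groups -/

/-- `P` -/
noncomputable abbrev P6 (k : Type u) [Field k] (r m : ℕ) [Fact r.Prime] [CharP k r] [PerfectRing k r]
    (t : ↥(chevE6.group k)) : Subgroup ↥(chevE6.group k) := U6 k ⊓ Fx (SS k r m t)

/-- `Q` -/
noncomputable abbrev Q6 (k : Type u) [Field k] (r m : ℕ) [Fact r.Prime] [CharP k r] [PerfectRing k r]
    (t : ↥(chevE6.group k)) : Subgroup ↥(chevE6.group k) := V6 k ⊓ Fx (SS k r m t)

/-- `T_L` -/
noncomputable abbrev T6 (k : Type u) [Field k] (r m : ℕ) [Fact r.Prime] [CharP k r] [PerfectRing k r]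
    (t : ↥(chevE6.group k)) : Subgroup ↥(chevE6.group k) := TT chevE6 k ⊓ Fx (SS k r m t)

/-- `K` -/
noncomputable abbrev K6 (k : Type u) [Field k] (r m : ℕ) [Fact r.Prime] [CharP k r] [PerfectRing k r]
    (t : ↥(chevE6.group k)) : Subgroup ↥(chevE6.group k) := P6 k r m t ⊔ Q6 k r m t ⊔ T6 k r m t

/-- the root group of the root `s` in `L` -/
noncomputable abbrev X6 (k : Type u) [Field k] (r m : ℕ) [Fact r.Prime] [CharP k r] [PerfectRing k r]
    (t : ↥(chevE6.group k)) (s : ℕ) : Subgroup ↥(chevE6.group k) := XX chevE6 6 k (vc s) ⊓ Fx (SS k r m t)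

theorem mem_X6 (D : TD k r m ε t) {s : Fin 72} (hs : rh s = s) (h : ε = 1 ∨ Even (vc s.val 1)) {y : ↥(chevE6.group k)} :
    y ∈ X6 k r m t s.val ↔ ∃ c : k, c ^ r ^ m = c ∧ y = xe s.val c := by
  constructor
  · rintro ⟨h1, h2⟩
    obtain ⟨c, rfl⟩ := (mem_XX s.2).1 h1
    have h3 := ((mem_L r).1 h2).1
    rw [phi_xe r s.2] at h3
    exact ⟨c, xe_inj s.2 h3, rfl⟩
  · rintro ⟨c, hc, rfl⟩
    exact ⟨(mem_XX s.2).2 ⟨c, rfl⟩, xe_L r D hs h hc⟩

theorem finite_L (hm : 0 < m) (hk : LocFin k) : Finite ↥(Fx (SS k r m t)) := by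
  have h1 : Finite ↥(fixedSubgroup (phi chevE6 k r m)) := Cfsg.Agent.BpExc.Sig.finite_fixed hk hm (phi_isFrob r m)
  have h2 : Fx (SS k r m t) ≤ fixedSubgroup (phi chevE6 k r m) := fun y hy => ((mem_L r).1 hy).1
  exact Finite.of_injective _ (Subgroup.inclusion_injective h2)

include hk in
/-- positive roots commute with the highest root -/
theorem comm_U {u x : ↥(chevE6.group k)} (hu : u ∈ U6 k) (hx : x ∈ XX chevE6 6 k (vc 71)) : u * x = x * u := by
  obtain ⟨c, rfl⟩ := (mem_XX (by decide)).1 hx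
  have h1 : U6 k ≤ Subgroup.centralizer {xe 71 c} := by
    rw [U6_eq hk]
    refine RGD.Sup_le fun a ha => ?_
    obtain ⟨s, rfl⟩ := exists_vc ha.1
    intro y hy
    obtain ⟨d, rfl⟩ := (mem_XX s.2).1 hy
    rw [Subgroup.mem_centralizer_singleton_iff]
    have hs : 36 ≤ s.val := (nonneg_iff s.2).1 ha.2
    by_cases h71 : s.val = 71
    · rw [h71, xe_add, xe_add, add_comm]
    · exact (comm_xe s.2 (by decide) (Ne.symm h71) (by rw [neg_idx]; omega) (comm_top s hs) d c).symm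
  exact Subgroup.mem_centralizer_singleton_iff.1 (h1 hu)

include hk in
/-- negative roots commute with the lowest root -/
theorem comm_V {u x : ↥(chevE6.group k)} (hu : u ∈ V6 k) (hx : x ∈ XX chevE6 6 k (vc 0)) : u * x = x * u := by
  obtain ⟨c, rfl⟩ := (mem_XX (by decide)).1 hx
  have h1 : V6 k ≤ Subgroup.centralizer {xe 0 c} := by
    rw [V6_eq hk]
    refine RGD.Sup_le fun a ha => ?_
    obtain ⟨s, rfl⟩ := exists_vc ha.1
    intro y hy
    obtain ⟨d, rfl⟩ := (mem_XX s.2).1 hy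
    rw [Subgroup.mem_centralizer_singleton_iff]
    have hs : s.val < 36 := (nonpos_iff s.2).1 ha.2
    by_cases h0 : s.val = 0
    · rw [h0, xe_add, xe_add, add_comm]
    · exact (comm_xe s.2 (by decide) (Ne.symm h0) (by rw [neg_idx]; omega) (comm_bot s hs) d c).symm
  exact Subgroup.mem_centralizer_singleton_iff.1 (h1 hu)

include hk in
/-- two long root groups -/
theorem pair6 (w : CoxeterMatrix.E₆.Group) (hw : rep cs6 e6T.isCartan w (vc 71) ≠ -vc 71) :
    IsPGroup r ↥(XX chevE6 6 k (vc 71) ⊔ XX chevE6 6 k (rep cs6 e6T.isCartan w (vc 71)) : Subgroup ↥(chevE6.group k)) := by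
  obtain ⟨s, e⟩ := exists_img w 71
  have e' : rep cs6 e6T.isCartan w (vc 71) = vc s.val := e.symm
  rw [e'] at hw ⊢
  have hUp : IsPGroup r ↥(U6 k) := isPGroup_UU (tw6 hk r)
  have hle : ∀ s : Fin 72, 36 ≤ s.val → XX chevE6 6 k (vc s.val) ≤ U6 k := by
    intro s hs y hy
    obtain ⟨c, rfl⟩ := (mem_XX s.2).1 hy
    exact xe_U hk s.2 hs c
  by_cases hs : 36 ≤ s.val
  · exact hUp.to_le (sup_le (hle 71 (by decide)) (hle s hs))
  · have hs0 : 0 < s.val := by
      rcases Nat.eq_zero_or_pos s.val with h0 | h0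
      · exfalso
        apply hw
        rw [h0]
        exact vc_negate (s := 71) (by decide)
      · exact h0
    obtain ⟨h1, h2⟩ := pw_check ⟨s.val, by omega⟩ hs0
    set ω := pw.getD s.val [] with hω
    obtain ⟨g, -, hg⟩ := (tw6 (k := k) hk r).exists_rp (cs6.wordProd ω)
    have h3 : ∀ s : Fin 72, 36 ≤ rf ω s.val → XX chevE6 6 k (vc s.val) ≤ cj g⁻¹ (U6 k) := by
      intro s hs y hy
      rw [mem_cj, inv_inv]
      have h4 := (tw6 hk r).conj_rp hg (isRoot_vc s.2)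
      rw [XL6 hk, rep_word ω s.2] at h4
      have h5 : g * y * g⁻¹ ∈ cj g (XX chevE6 6 k (vc s.val)) := conj_mem_cj.2 hy
      rw [h4] at h5
      exact hle ⟨rf ω s.val, rf_lt ω s.2⟩ hs h5
    have h4 : IsPGroup r ↥(cj g⁻¹ (U6 k)) := hUp.map _
    exact h4.to_le (sup_le (h3 71 h1) (h3 s h2))

/-! ### the elements over the reflections -/

/-- `n_s(1)` in `K` -/
theorem ng_mem (D : TD k r m ε t) {s : Fin 72} (hs : 36 ≤ s.val) (hm : rh s = s) (he : Even (vc s.val 1)) :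
    ng s.val (1 : k) ∈ X6 k r m t s.val ⊔ X6 k r m t (71 - s.val) := by
  have h1 : xe s.val (1 : k) ∈ X6 k r m t s.val := (mem_X6 r D hm (Or.inr he)).2 ⟨1, one_pow _, rfl⟩
  let s' : Fin 72 := ⟨71 - s.val, by omega⟩
  have hm' : rh s' = s' := rh_neg s hm
  have he' : Even (vc s'.val 1) := by
    have h2 : vc s'.val = -vc s.val := vc_negate s.2
    rw [h2]
    exact he.neg
  have hodd : ((-1 : k) ^ r ^ m) = -1 := by
    have h3 := map_neg (frb k r m) (1 : k)
    rwa [frb_apply, map_one] at h3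
  have h2 : xe (71 - s.val) (-1 : k) ∈ X6 k r m t (71 - s.val) := (mem_X6 r D hm' (Or.inr he')).2 ⟨-1, hodd, rfl⟩
  rw [ng_eq s.2, inv_one]
  exact mul_mem (Subgroup.mem_sup_left h1) (mul_mem (Subgroup.mem_sup_right h2) (Subgroup.mem_sup_left h1))

/-- the highest root as an index -/
theorem vc_top : -vc 71 = vc 0 := (vc_negate (s := 71) (by decide)).symm

/-- the word of the highest root -/
def ωt : List (Fin 6) := [1, 3, 4, 5, 2, 3, 4, 1, 3, 2]

theorem ωt_rf : rf ωt (chevE6.simple (0 : Fin 6)) = 71 := by decide +kernel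

theorem ωt_refl : rf (ωt ++ [0] ++ ωt.reverse) 71 = 0 := by decide +kernel

/-- the product of the `n_s(1)` of the four long roots -/
theorem exists_k0 (D : TD k r m ε t) : ∃ g : ↥(chevE6.group k), Rp cs6 (tw6 hk r).nsys (cs6.wordProd w0w) g ∧
    g ∈ K6 k r m t := by
  have key : ∀ l : List (List (Fin 6) × Fin 6 × ℕ), (∀ x ∈ l, x ∈ bw) → ∃ g : ↥(chevE6.group k),
      Rp cs6 (tw6 hk r).nsys (cs6.wordProd (l.map fun x => x.1 ++ [x.2.1] ++ x.1.reverse).flatten) g ∧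
      g ∈ K6 k r m t := by
    intro l
    induction l with
    | nil => exact fun _ => ⟨1, rp_one, one_mem _⟩
    | cons x l ih =>
      intro hl
      obtain ⟨g, hg, hgK⟩ := ih fun y hy => hl y (List.mem_cons_of_mem _ hy)
      have hx := hl x List.mem_cons_self
      refine ⟨ng (rf x.1 (chevE6.simple x.2.1)) 1 * g, ?_, mul_mem ?_ hgK⟩
      · rw [List.map_cons, List.flatten_cons, wordProd_append]
        exact (rp_ng hk r x.1 x.2.1).mul hg
      · have h1 : rf x.1 (chevE6.simple x.2.1) = x.2.2 := bw_check x hx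
        rw [h1]
        obtain ⟨h2, h3, h4, h5⟩ := bw_fix x hx
        have h6 := ng_mem (k := k) r D (s := ⟨x.2.2, h2⟩) h3 h4 h5
        have h7 : X6 k r m t x.2.2 ⊔ X6 k r m t (71 - x.2.2) ≤ K6 k r m t := by
          refine sup_le ?_ ?_
          · rintro y ⟨hy, hyL⟩
            obtain ⟨c, rfl⟩ := (mem_XX h2).1 hy
            exact Subgroup.mem_sup_left (Subgroup.mem_sup_left ⟨xe_U hk h2 h3 c, hyL⟩)
          · rintro y ⟨hy, hyL⟩
            obtain ⟨c, rfl⟩ := (mem_XX (by omega)).1 hy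
            exact Subgroup.mem_sup_left (Subgroup.mem_sup_right ⟨xe_V hk (by omega) c, hyL⟩)
        exact h7 h6
  exact key bw fun x hx => hx

include hk in
/-- **The base pair.** -/
theorem base6 (hr2 : r ≠ 2) (hm : 0 < m) (D : TD k r m ε t) :
    Base r (K6 k r m t) (X6 k r m t 71) (X6 k r m t 0) (P6 k r m t) (Q6 k r m t) (T6 k r m t) := by
  have hfin := finite_L (k := k) r (m := m) (t := t) hm hk
  obtain ⟨k₀, hk₀, hk₀K⟩ := exists_k0 hk r D
  have h := base (tw6 hk r) (S := SS k r m t) hr2 (pfr_all hk r D.mem) (GG_top6 hk) (move hk r hr2 D)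
    (a₀ := vc 71) (isRoot_vc (by decide)) ((nonneg_iff (by decide)).2 (by decide))
    (by rw [XL6 hk]; exact fun u hu x hx => comm_U hk hu hx)
    (by rw [XL6 hk, vc_top]; exact fun u hu x hx => comm_V hk hu hx)
    (by
      rw [XL6 hk]
      intro hb
      have h1 : xe 71 (1 : k) ∈ X6 k r m t 71 :=
        (mem_X6 r D (s := 71) rh_vals.2.2.1 (Or.inr (by decide +kernel))).2 ⟨1, one_pow _, rfl⟩
      have h2 : xe 71 (1 : k) ∈ (⊥ : Subgroup ↥(chevE6.group k)) := hb ▸ h1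
      rw [Subgroup.mem_bot, xe_eq_one (by decide)] at h2
      exact one_ne_zero h2)
    (by rw [XL6 hk]; exact pair6 hk r)
    (w₁ := cs6.wordProd (ωt ++ [0] ++ ωt.reverse)) (n₁ := ng (rf ωt (chevE6.simple (0 : Fin 6))) 1) (rp_ng hk r ωt 0)
    (by
      rw [XL6 hk, vc_top, ωt_rf]
      exact ng_mem r D (s := 71) (by decide) rh_vals.2.2.1 (by decide +kernel))
    (by rw [rep_word _ (by decide), ωt_refl, vc_top])
    (w₀ := cs6.wordProd w0w) (k₀ := k₀) hk₀ (by rw [TL6 hk]; exact hk₀K)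
    (by
      intro a ha ha0
      obtain ⟨s, rfl⟩ := exists_vc ha
      rw [rep_word _ s.2]
      exact (nonpos_iff (rf_lt _ s.2)).2 (w0_check s ((nonneg_iff s.2).1 ha0)))
  rw [XL6 hk, TL6 hk, vc_top] at h
  exact h

end Cfsg.Agent.H85.RGT.Six
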