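import Cfsg.Agent.H85.RGT.SixC

/-!
# S3509, `E₆(k)`: the condition on the base pair of the centraliser of a graph involution (helper85)

* `h0` : `h_{a₀}(-1) = n_{a₀}(1)²`, inverts `zz s c` if the coefficient of `s` at `α₂` is odd;
* `zz_mem` : `zz s c ∈ MK K X` for these `s`;
* `cond6` : `Cond K X Y`.
-/

set_option autoImplicit false
set_option linter.unusedSectionVars false

namespace Cfsg.Agent.H85.RGT.Six

open CoxeterSystem Cfsg Cfsg.Lie Cfsg.Lie.ChevalleyDatum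
open Cfsg.Agent.ChevalleyStructure Cfsg.Agent.ChevalleyStructure.Elts Cfsg.Agent.ChevalleyStructure.CoxeterGeom
  Cfsg.Agent.ChevalleyStructure.NPerm Cfsg.Agent.ChevalleyStructure.NConj
open Cfsg.Agent.Tits.Roots Cfsg.Agent.Tits.Core Cfsg.Agent.Tits.RootComb Cfsg.Agent.Nodes.Reps Cfsg.Agent.Nodes.BNOf
  Cfsg.Agent.Nodes.RGDChev Cfsg.Agent.Nodes.Bruhat Cfsg.Agent.Nodes.NormalForm
open Cfsg.Agent.KFacts.RgdField Cfsg.Agent.KFacts.RgdChevCoord Cfsg.Agent.CpAut.RgdUntw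
open Cfsg.Agent.BpExc Cfsg.Agent.BpExc.TorCent Cfsg.Agent.BpExc.Tow Cfsg.Agent.BpExc.TowChev Cfsg.Agent.BpExc.Fr
  Cfsg.Agent.BpExc.FamField Cfsg.Agent.BpExc.FamUntw Cfsg.Agent.BpExc.FamInst Cfsg.Agent.BpExc.RowsUntw
open Cfsg.Agent.BpExc.FamTw.Gr (gr gr_xg xg coe_gr coe_xg gr_mul_fld)
open Cfsg.Agent.ChevalleyStructure.GraphSymm (symmE6)
open Cfsg.Agent.H28.RG Cfsg.Agent.H441.RG
open Cfsg.Agent.H398.RG (Base Cond MK conj_MK le_MK cj_le_MK)

universe u

section Abs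

variable {G : Type*} [Group G]

/-- an element of odd order inverted by an element of `N` -/
theorem mem_of_inv {N : Subgroup G} {h z : G} (hh : h ∈ N) (hz : ∀ n ∈ N, z * n * z⁻¹ ∈ N) (hi : h * z * h⁻¹ = z⁻¹)
    {j : ℕ} (hj : z ^ (2 * j + 1) = 1) : z ∈ N := by
  have h1 : z⁻¹ * z⁻¹ ∈ N := by
    have h2 : h * (z * h⁻¹ * z⁻¹) ∈ N := N.mul_mem hh (hz _ (N.inv_mem hh))
    have e : h * (z * h⁻¹ * z⁻¹) = (h * z * h⁻¹) * z⁻¹ := by group
    rwa [e, hi] at h2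
  have h2 : z = (z⁻¹ * z⁻¹) ^ j := by
    have h3 : z⁻¹ * z⁻¹ = (z ^ 2)⁻¹ := by rw [pow_two, mul_inv_rev]
    rw [h3, inv_pow, ← pow_mul, eq_inv_iff_mul_eq_one, ← pow_succ', hj]
  rw [h2]
  exact N.pow_mem h1 j

/-- the commutator of the products -/
theorem comm_prod {x x' y y' z : G} (h1 : y * x = x * y * z) (h2 : y' * x' = x' * y' * z) (h3 : y' * x = x * y')
    (h4 : y * x' = x' * y) (h5 : ∀ g ∈ ({x, x', y, y'} : Set G), z * g = g * z) :
    (y * y') * (x * x') = (x * x') * (y * y') * (z * z) := by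
  have zx' := h5 x' (by simp)
  have zy' := h5 y' (by simp)
  calc (y * y') * (x * x') = y * (y' * x) * x' := by group
    _ = (y * x) * (y' * x') := by rw [h3]; group
    _ = x * y * (z * x') * y' * z := by rw [h1, h2]; group
    _ = x * (y * x') * (z * y') * z := by rw [zx']; group
    _ = (x * x') * (y * y') * (z * z) := by rw [h4, zy']; group

end Abs

variable {k : Type u} [Field k] [IsAlgClosed k] (hk : LocFin k) (r : ℕ) [Fact r.Prime] [CharP k r] [PerfectRing k r]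
  {m : ℕ} {ε : kˣ} {t : ↥(chevE6.group k)}

/-- `h_{a₀}(-1)` -/
noncomputable def h0 (k : Type u) [Field k] : ↥(chevE6.group k) := ng 71 1 * ng 71 1

include hk r in
theorem h0_act {b : Fin 72} (hb : ¬ Even (vc b.val 1)) (c : k) : h0 k * xe b.val c * (h0 k)⁻¹ = xe b.val (-c) := by
  have h1 := ng_sq_act (k := k) hk r ωt 0 b.2 (fun h => hb ((par_top b).1 h)) c
  rw [ωt_rf] at h1
  exact h1

theorem h0_mem (D : TD k r m ε t) : h0 k ∈ X6 k r m t 71 ⊔ X6 k r m t 0 := by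
  have h1 := ng_mem r D (s := 71) (by decide) rh_vals.2.2.1 (by decide +kernel)
  exact mul_mem h1 h1

theorem X6_le_K (hk : LocFin k) : X6 k r m t 71 ≤ K6 k r m t ∧ X6 k r m t 0 ≤ K6 k r m t := by
  constructor
  · rintro y ⟨hy, hyL⟩
    obtain ⟨c, rfl⟩ := (mem_XX (by decide)).1 hy
    exact Subgroup.mem_sup_left (Subgroup.mem_sup_left ⟨xe_U hk (by decide) (by decide) c, hyL⟩)
  · rintro y ⟨hy, hyL⟩
    obtain ⟨c, rfl⟩ := (mem_XX (by decide)).1 hy
    exact Subgroup.mem_sup_left (Subgroup.mem_sup_right ⟨xe_V hk (by decide) c, hyL⟩)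

theorem K6_le_L : K6 k r m t ≤ Fx (SS k r m t) := sup_le (sup_le inf_le_right inf_le_right) inf_le_right

theorem h0_L (hk : LocFin k) (D : TD k r m ε t) : h0 k ∈ Fx (SS k r m t) :=
  K6_le_L r ((sup_le (X6_le_K r hk).1 (X6_le_K r hk).2) (h0_mem r D))

include r in
/-- `h0 ^ j` on the root elements -/
theorem h0_pow_act (hk : LocFin k) {b : Fin 72} (hb : ¬ Even (vc b.val 1)) (j : ℕ) (c : k) :
    h0 k ^ j * xe b.val c * (h0 k ^ j)⁻¹ = xe b.val ((-1) ^ j * c) := by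
  induction j with
  | zero => rw [pow_zero, pow_zero, one_mul, one_mul, inv_one, mul_one]
  | succ j ih =>
    have e : h0 k ^ (j + 1) * xe b.val c * (h0 k ^ (j + 1))⁻¹ =
        h0 k * (h0 k ^ j * xe b.val c * (h0 k ^ j)⁻¹) * (h0 k)⁻¹ := by rw [pow_succ']; group
    rw [e, ih, h0_act hk r hb]
    congr 1
    ring

theorem zz_inv (D : TD k r m ε t) {s : Fin 72} (hs : rh s ≠ s) (c : k) : (zz t s.val c)⁻¹ = zz t s.val (-c) := by
  unfold zz
  rw [mul_inv_rev, ← map_inv, xe_inv, comm_tau r D hs]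

theorem zz_pow (D : TD k r m ε t) {s : Fin 72} (hs : rh s ≠ s) (c : k) (j : ℕ) :
    zz t s.val c ^ j = zz t s.val (j * c) := by
  unfold zz
  have h1 : Commute (xe s.val c) (tau t (xe s.val c)) := (comm_tau r D hs c c).symm
  rw [h1.mul_pow, ← map_pow, xe_pow]

theorem zz_zero (s : ℕ) : zz t s (0 : k) = 1 := by
  unfold zz
  rw [xe_zero, map_one, mul_one]

/-- odd powers of `h0` invert `zz` -/
theorem h0_zz (hk : LocFin k) (D : TD k r m ε t) {s : Fin 72} (hs : rh s ≠ s) (ho : ¬ Even (vc s.val 1)) {j : ℕ}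
    (hj : Odd j) (c : k) : h0 k ^ j * zz t s.val c * (h0 k ^ j)⁻¹ = (zz t s.val c)⁻¹ := by
  have h1 := h0_pow_act r hk ho j c
  rw [hj.neg_one_pow, neg_one_mul] at h1
  have h2 : tau t (h0 k ^ j) = h0 k ^ j := by
    rw [map_pow, ((mem_L r).1 (h0_L r hk D)).2]
  have h3 := congrArg (tau t) h1
  rw [map_mul, map_mul, map_inv, h2] at h3
  rw [zz_inv r D hs]
  unfold zz
  have e : h0 k ^ j * (xe s.val c * tau t (xe s.val c)) * (h0 k ^ j)⁻¹ =
      (h0 k ^ j * xe s.val c * (h0 k ^ j)⁻¹) * (h0 k ^ j * tau t (xe s.val c) * (h0 k ^ j)⁻¹) := by group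
  rw [e, h1, h3]

theorem zz_K (hk : LocFin k) (D : TD k r m ε t) {s : Fin 72} (hs : rh s ≠ s) {c : k} (hc : c ^ r ^ m = c) :
    zz t s.val c ∈ K6 k r m t := by
  have h1 := zz_L r D hs hc
  by_cases h36 : 36 ≤ s.val
  · exact Subgroup.mem_sup_left (Subgroup.mem_sup_left ⟨zz_U hk r D h36 c, h1⟩)
  · refine Subgroup.mem_sup_left (Subgroup.mem_sup_right ⟨?_, h1⟩)
    unfold zz
    rw [tau_xe r D]
    exact mul_mem (xe_V hk (by omega) c) (xe_V hk (rh_negative s (by omega)) _)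

theorem Y_le_MK (hr2 : r ≠ 2) (hm : 0 < m) (hk : LocFin k) (D : TD k r m ε t) :
    X6 k r m t 0 ≤ MK (K6 k r m t) (X6 k r m t 71) := by
  obtain ⟨g, hg, e⟩ := (base6 hk r hr2 hm D).conjY
  rw [← e]
  exact cj_le_MK hg

theorem h0_MK (hr2 : r ≠ 2) (hm : 0 < m) (hk : LocFin k) (D : TD k r m ε t) :
    h0 k ∈ MK (K6 k r m t) (X6 k r m t 71) :=
  (sup_le (le_MK _ _) (Y_le_MK r hr2 hm hk D)) (h0_mem r D)

theorem odd_r (hr2 : r ≠ 2) : ∃ j, r = 2 * j + 1 := (Fact.out : r.Prime).odd_of_ne_two hr2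

theorem zz_r (D : TD k r m ε t) {s : Fin 72} (hs : rh s ≠ s) (c : k) : zz t s.val c ^ r = 1 := by
  rw [zz_pow r D hs, CharP.cast_eq_zero, zero_mul, zz_zero]

/-- **The elements `zz s c`, odd coefficient at `α₂`, are in `M`.** -/
theorem zz_mem (hr2 : r ≠ 2) (hm : 0 < m) (hk : LocFin k) (D : TD k r m ε t) {s : Fin 72} (hs : rh s ≠ s)
    (ho : ¬ Even (vc s.val 1)) {c : k} (hc : c ^ r ^ m = c) : zz t s.val c ∈ MK (K6 k r m t) (X6 k r m t 71) := by
  obtain ⟨j, hj⟩ := odd_r r hr2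
  refine mem_of_inv (h := h0 k ^ 1) (pow_mem (h0_MK r hr2 hm hk D) 1)
    (fun n hn => conj_MK (zz_K r hk D hs hc) hn) (h0_zz r hk D hs ho odd_one c) (j := j) ?_
  rw [← hj, zz_r r D hs]

/-- the commutator of `zz 48 a` and `zz 68 b` -/
theorem zz_comm (hk : LocFin k) (D : TD k r m ε t) : ∃ η : k, (η = 1 ∨ η = -1) ∧ ∀ a b : k,
    zz t 68 b * zz t 48 a = zz t 48 a * zz t 68 b * xe 71 (2 * (η * (a * b))) := by
  obtain ⟨η, hη, h⟩ := comm_top_xe (k := k)
  refine ⟨η, hη, fun a b => ?_⟩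
  have hz : tau t (xe 71 (η * (a * b))) = xe 71 (η * (a * b)) := by
    have h1 := tau_xe r D 71 (η * (a * b))
    rwa [rh_vals.2.2.1, sc_fix r D rh_vals.2.2.1 (Or.inr (by decide +kernel)), one_mul] at h1
  have h1 := h a b
  have h2 := congrArg (tau t) h1
  rw [map_mul, map_mul, map_mul, hz] at h2
  have t48 : ∀ c : k, ∃ d, tau t (xe 48 c) = xe 50 d := fun c => ⟨_, by
    have := tau_xe r D 48 c
    rwa [rh_vals.1] at this⟩
  have t68 : ∀ c : k, ∃ d, tau t (xe 68 c) = xe 66 d := fun c => ⟨_, by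
    have := tau_xe r D 68 c
    rwa [rh_vals.2.1] at this⟩
  have h3 : tau t (xe 68 b) * xe 48 a = xe 48 a * tau t (xe 68 b) := by
    obtain ⟨d, hd⟩ := t68 b
    rw [hd]
    exact comm_xe (by decide) (by decide) (by decide) (by decide +kernel) comm_48_66.1 a d
  have h4 : xe 68 b * tau t (xe 48 a) = tau t (xe 48 a) * xe 68 b := by
    obtain ⟨d, hd⟩ := t48 a
    rw [hd]
    exact comm_xe (by decide) (by decide) (by decide) (by decide +kernel) comm_48_66.2 d b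
  have hU : ∀ y ∈ U6 k, xe 71 (η * (a * b)) * y = y * xe 71 (η * (a * b)) := fun y hy =>
    (comm_U hk hy ((mem_XX (by decide)).2 ⟨_, rfl⟩)).symm
  have key := comm_prod h1 h2 h3 h4 (fun g hg => by
    simp only [Set.mem_insert_iff, Set.mem_singleton_iff] at hg
    rcases hg with rfl | rfl | rfl | rfl
    · exact hU _ (xe_U hk (by decide) (by decide) _)
    · obtain ⟨d, hd⟩ := t48 a
      rw [hd]
      exact hU _ (xe_U hk (by decide) (by decide) _)
    · exact hU _ (xe_U hk (by decide) (by decide) _)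
    · obtain ⟨d, hd⟩ := t68 b
      rw [hd]
      exact hU _ (xe_U hk (by decide) (by decide) _))
  rw [xe_add, ← two_mul] at key
  exact key

/-- **The condition on the base pair.** -/
theorem cond6 (hr2 : r ≠ 2) (hm : 0 < m) (hk : LocFin k) (D : TD k r m ε t) :
    Cond (K6 k r m t) (X6 k r m t 71) (X6 k r m t 0) := by
  intro N hN hMN hY
  obtain ⟨j, hj⟩ := odd_r r hr2
  have hXM : X6 k r m t 71 ≤ MK (K6 k r m t) (X6 k r m t 71) := le_MK _ _
  have hfix71 : rh 71 = 71 := rh_vals.2.2.1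
  have hev71 : Even (vc (71 : Fin 72).val 1) := by decide +kernel
  -- `⟨X, Y⟩ ≤ X N`
  let XN : Subgroup ↥(chevE6.group k) :=
    { carrier := {z | ∃ x ∈ X6 k r m t 71, ∃ n ∈ N, z = x * n}
      one_mem' := ⟨1, one_mem _, 1, N.one_mem, by simp⟩
      mul_mem' := by
        rintro _ _ ⟨x, hx, n, hn, rfl⟩ ⟨x', hx', n', hn', rfl⟩
        refine ⟨x * x', mul_mem hx hx', (x'⁻¹ * n * x') * n', N.mul_mem ?_ hn', by group⟩
        have := hMN x'⁻¹ (hXM (inv_mem hx')) n hn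
        rwa [inv_inv] at this
      inv_mem' := by
        rintro _ ⟨x, hx, n, hn, rfl⟩
        refine ⟨x⁻¹, inv_mem hx, x * n⁻¹ * x⁻¹, hMN x (hXM hx) _ (N.inv_mem hn), by group⟩ }
  have h1 : X6 k r m t 71 ⊔ X6 k r m t 0 ≤ XN := sup_le (fun x hx => ⟨x, hx, 1, N.one_mem, by simp⟩) hY
  obtain ⟨x, hx, n, hn, hρe⟩ := h1 (h0_mem r D)
  have hpow : ∀ i : ℕ, ∃ n' ∈ N, h0 k ^ i = x ^ i * n' := by
    intro i
    induction i with
    | zero => exact ⟨1, N.one_mem, by simp⟩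
    | succ i ih =>
      obtain ⟨n', hn', e⟩ := ih
      refine ⟨(x⁻¹ * n' * x) * n, N.mul_mem ?_ hn, ?_⟩
      · have := hMN x⁻¹ (hXM (inv_mem hx)) n' hn'
        rwa [inv_inv] at this
      · rw [pow_succ, e, hρe, pow_succ]
        group
  have hh : h0 k ^ r ∈ N := by
    obtain ⟨n', hn', e⟩ := hpow r
    obtain ⟨c, -, rfl⟩ := (mem_X6 r D (s := 71) hfix71 (Or.inr hev71)).1 hx
    have h2 : (xe (71 : Fin 72).val c) ^ r = 1 := by rw [xe_pow, CharP.cast_eq_zero, zero_mul, xe_zero]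
    rw [h2, one_mul] at e
    rw [e]
    exact hn'
  have hzz : ∀ s : Fin 72, rh s ≠ s → ¬ Even (vc s.val 1) → ∀ c : k, c ^ r ^ m = c → zz t s.val c ∈ N := by
    intro s hs ho c hc
    refine mem_of_inv (h := h0 k ^ r) hh (hMN _ (zz_mem r hr2 hm hk D hs ho hc)) (h0_zz r hk D hs ho ⟨j, hj⟩ c) (j := j) ?_
    rw [← hj, zz_r r D hs]
  obtain ⟨η, hη, hc⟩ := zz_comm r hk D
  intro y hy
  obtain ⟨c, hcF, rfl⟩ := (mem_X6 r D (s := 71) hfix71 (Or.inr hev71)).1 hy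
  have h2 : (2 : k) ≠ 0 := by
    intro h0
    have h9 : (r : ℕ) ∣ 2 := (CharP.cast_eq_zero_iff k r 2).1 (by exact_mod_cast h0)
    exact hr2 ((Nat.prime_dvd_prime_iff_eq Fact.out Nat.prime_two).1 h9)
  have hη0 : η ≠ 0 := by rcases hη with rfl | rfl <;> simp
  set a : k := c * (2 * η)⁻¹ with ha
  have haF : a ^ r ^ m = a := by
    have h3 : frb k r m a = a := by
      rw [ha, map_mul, map_inv₀, map_mul, map_ofNat, frb_apply, hcF]
      congr 3
      rcases hη with rfl | rfl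
      · rw [map_one]
      · rw [map_neg, map_one]
    rwa [frb_apply] at h3
  have h3 := hc a 1
  rw [mul_one] at h3
  have h4 : 2 * (η * a) = c := by
    rw [ha]
    field_simp
  rw [h4] at h3
  have h5 : xe 71 c = (zz t 48 a * zz t 68 1)⁻¹ * (zz t 68 1 * zz t 48 a) := by
    rw [h3]; group
  show xe 71 c ∈ N
  rw [h5]
  have z48 := hzz 48 mov_vals.2.2.2.2.2.1 (by decide +kernel) a haF
  have z68 := hzz 68 mov_vals.2.2.2.2.2.2 (by decide +kernel) 1 (one_pow _)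
  exact N.mul_mem (N.inv_mem (N.mul_mem z48 z68)) (N.mul_mem z68 z48)

end Cfsg.Agent.H85.RGT.Six
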