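import Cfsg.Agent.H85.RGT.SixD
import Cfsg.Agent.H378.TorChar

/-!
# S3509, `E₆(k)`: the centraliser of a graph involution, `L` on `M` (helper85)

`M = MK K X`, `P ≤ M`.

* `k06` : `k₀ ∈ K` over `w₀`;
* `form6`, `norm6` : the form of the elements of `L`, `N_L(P) = P T_L`;
* `norm_MK` : `L` normalises `M`;
* `cent_MK` : `C_L(M) = 1`.
-/

set_option autoImplicit false
set_option linter.unusedSectionVars false

namespace Cfsg.Agent.H85.RGT.Six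

open CoxeterSystem Cfsg Cfsg.Lie Cfsg.Lie.ChevalleyDatum
open Cfsg.Agent.ChevalleyStructure Cfsg.Agent.ChevalleyStructure.Elts Cfsg.Agent.ChevalleyStructure.CoxeterGeom
  Cfsg.Agent.ChevalleyStructure.NPerm Cfsg.Agent.ChevalleyStructure.NConj
open Cfsg.Agent.Tits.Roots Cfsg.Agent.Tits.Core Cfsg.Agent.Tits.RootComb Cfsg.Agent.Nodes.Reps Cfsg.Agent.Nodes.BNOf
  Cfsg.Agent.Nodes.RGDChev Cfsg.Agent.Nodes.Bruhat Cfsg.Agent.Nodes.NormalForm
open Cfsg.Agent.KFacts.RgdField Cfsg.Agent.KFacts.RgdChevCoord Cfsg.Agent.CpAut.RgdUntw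
open Cfsg.Agent.BpExc Cfsg.Agent.BpExc.TorCent Cfsg.Agent.BpExc.Tow Cfsg.Agent.BpExc.TowChev Cfsg.Agent.BpExc.Fr
  Cfsg.Agent.BpExc.FamField Cfsg.Agent.BpExc.FamUntw Cfsg.Agent.BpExc.FamInst Cfsg.Agent.BpExc.RowsUntw
open Cfsg.Agent.BpExc.FamTw.Gr (gr gr_xg xg coe_gr coe_xg gr_mul_fld)
open Cfsg.Agent.ChevalleyStructure.GraphSymm (symmE6)
open Cfsg.Agent.H28.RG Cfsg.Agent.H441.RG
open Cfsg.Agent.H398.RG (Base Cond MK conj_MK MK_le)
open Cfsg.Agent.H378.TorChar (tchar tchar_sr tchar_apply tchar_injective lat lat_sr lat_apply ext_sr)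

universe u

variable {k : Type u} [Field k] [IsAlgClosed k] (hk : LocFin k) (r : ℕ) [Fact r.Prime] [CharP k r] [PerfectRing k r]
  {m : ℕ} {ε : kˣ} {t : ↥(chevE6.group k)}

theorem w0_check' : ∀ s : Fin 72, s.val < 36 → 36 ≤ rf w0w s.val := by decide +kernel

/-- `k₀` -/
theorem k06 (D : TD k r m ε t) : ∃ g ∈ K6 k r m t, Rp cs6 (tw6 hk r).nsys (cs6.wordProd w0w) g ∧
    (∀ p ∈ P6 k r m t, g * p * g⁻¹ ∈ Q6 k r m t) ∧ ∀ v ∈ Q6 k r m t, g * v * g⁻¹ ∈ P6 k r m t := by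
  obtain ⟨g, hg, hgK⟩ := exists_k0 hk r D
  have hgL : g ∈ Fx (SS k r m t) := K6_le_L r hgK
  have hcL : ∀ x ∈ Fx (SS k r m t), g * x * g⁻¹ ∈ Fx (SS k r m t) := fun x hx =>
    mul_mem (mul_mem hgL hx) (inv_mem hgL)
  refine ⟨g, hgK, hg, fun p hp => ⟨?_, hcL p hp.2⟩, fun v hv => ⟨?_, hcL v hv.2⟩⟩
  · refine conj_SupL (tw6 hk r) hg (S := RGD.Pos cs6 e6T.isCartan) (S' := Cfsg.Agent.Nodes.OppDec.Neg cs6 e6T.isCartan)
      (fun a ha => ha.1) (fun a ha => ⟨ha.1.act _, ?_⟩) hp.1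
    obtain ⟨s, rfl⟩ := exists_vc ha.1
    rw [rep_word _ s.2]
    exact (nonpos_iff (rf_lt _ s.2)).2 (w0_check s ((nonneg_iff s.2).1 ha.2))
  · refine conj_SupL (tw6 hk r) hg (S := Cfsg.Agent.Nodes.OppDec.Neg cs6 e6T.isCartan) (S' := RGD.Pos cs6 e6T.isCartan)
      (fun a ha => ha.1) (fun a ha => ⟨ha.1.act _, ?_⟩) hv.1
    obtain ⟨s, rfl⟩ := exists_vc ha.1
    rw [rep_word _ s.2]
    exact (nonneg_iff (rf_lt _ s.2)).2 (w0_check' s ((nonpos_iff s.2).1 ha.2))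

/-- the form of the elements of `L` -/
theorem form6 (D : TD k r m ε t) {y : ↥(chevE6.group k)} (hy : y ∈ Fx (SS k r m t)) :
    ∃ w, ∃ u ∈ P6 k r m t, ∃ g, Rp cs6 (tw6 hk r).nsys w g ∧ g ∈ Fx (SS k r m t) ∧
      ∃ v ∈ P6 k r m t, g * v * g⁻¹ ∈ V6 k ∧ y = u * g * v :=
  form (tw6 hk r) (pfr_all hk r D.mem) (GG_top6 hk) hy

include hk in
/-- `N_L(P) = P T_L` -/
theorem norm6 (hr2 : r ≠ 2) (D : TD k r m ε t) {y : ↥(chevE6.group k)} (hy : y ∈ Fx (SS k r m t))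
    (hn : ∀ p ∈ P6 k r m t, y * p * y⁻¹ ∈ P6 k r m t) : ∃ p ∈ P6 k r m t, ∃ t' ∈ T6 k r m t, y = p * t' := by
  have h := mem_of_normalizer (tw6 hk r) (pfr_all hk r D.mem) (GG_top6 hk) (move hk r hr2 D) hy
    (fun u hu => (hn u hu).1)
  rw [TL6 hk] at h
  exact h

include hk in
/-- `⟨P, Q⟩` is normalised by `L` -/
theorem conj_PQ (D : TD k r m ε t) {y x : ↥(chevE6.group k)} (hy : y ∈ Fx (SS k r m t))
    (hx : x ∈ P6 k r m t ⊔ Q6 k r m t) : y * x * y⁻¹ ∈ P6 k r m t ⊔ Q6 k r m t :=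
  conj_K (tw6 hk r) (pfr_all hk r D.mem) (GG_top6 hk) hy hx

include hk in
theorem MK_le_PQ (D : TD k r m ε t) : MK (K6 k r m t) (X6 k r m t 71) ≤ P6 k r m t ⊔ Q6 k r m t := by
  refine MK_le fun y hy x hx => conj_PQ hk r D (K6_le_L r hy) (Subgroup.mem_sup_left ⟨?_, hx.2⟩)
  obtain ⟨c, rfl⟩ := (mem_XX (by decide)).1 hx.1
  exact xe_U hk (by decide) (by decide) c

include hk in
theorem Q_le_MK (D : TD k r m ε t) (hP : P6 k r m t ≤ MK (K6 k r m t) (X6 k r m t 71)) :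
    Q6 k r m t ≤ MK (K6 k r m t) (X6 k r m t 71) := by
  obtain ⟨g, hgK, -, -, h⟩ := k06 hk r D
  intro v hv
  have h1 := conj_MK (inv_mem hgK) (hP (h v hv))
  have e : g⁻¹ * (g * v * g⁻¹) * g⁻¹⁻¹ = v := by group
  rwa [e] at h1

include hk in
theorem MK_eq (D : TD k r m ε t) (hP : P6 k r m t ≤ MK (K6 k r m t) (X6 k r m t 71)) :
    MK (K6 k r m t) (X6 k r m t 71) = P6 k r m t ⊔ Q6 k r m t :=
  le_antisymm (MK_le_PQ hk r D) (sup_le hP (Q_le_MK hk r D hP))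

/-- **`L` normalises `M`.** -/
theorem norm_MK (hr2 : r ≠ 2) (hm : 0 < m) (hk : LocFin k) (D : TD k r m ε t)
    (hP : P6 k r m t ≤ MK (K6 k r m t) (X6 k r m t 71)) :
    ∀ y ∈ Fx (SS k r m t), ∀ x ∈ MK (K6 k r m t) (X6 k r m t 71), y * x * y⁻¹ ∈ MK (K6 k r m t) (X6 k r m t 71) := by
  rw [MK_eq hk r D hP]
  exact fun y hy x hx => conj_PQ hk r D hy hx

/-! ### the centraliser -/

theorem zz_add (D : TD k r m ε t) {s : Fin 72} (hs : rh s ≠ s) (a b : k) :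
    zz t s.val a * zz t s.val b = zz t s.val (a + b) := by
  unfold zz
  have h1 := comm_tau r D hs b a
  have e : xe s.val a * tau t (xe s.val a) * (xe s.val b * tau t (xe s.val b)) =
      xe s.val a * (tau t (xe s.val a) * xe s.val b) * tau t (xe s.val b) := by group
  rw [e, h1]
  have e2 : xe s.val a * (xe s.val b * tau t (xe s.val a)) * tau t (xe s.val b) =
      (xe s.val a * xe s.val b) * (tau t (xe s.val a) * tau t (xe s.val b)) := by group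
  rw [e2, xe_add, ← map_mul, xe_add]

theorem zz_inj (D : TD k r m ε t) {s : Fin 72} (hs : rh s ≠ s) {a b : k} (h : zz t s.val a = zz t s.val b) : a = b := by
  by_contra hne
  have h1 : zz t s.val (a + -b) = 1 := by rw [← zz_add r D hs, h, zz_add r D hs, add_neg_cancel, zz_zero]
  exact zz_ne r D hs (by rwa [← sub_eq_add_neg, sub_ne_zero]) h1

/-- the action of the torus -/
theorem tor_zz {t' : ↥(chevE6.group k)} (h1 : t' ∈ TT chevE6 k) (h2 : t' ∈ Fx (SS k r m t)) (s : Fin 72) (c : k) :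
    t' * zz t s.val c * t'⁻¹ = zz t s.val (ch e6T (vc s.val) t' * c) := by
  have h3 : tau t t' = t' := ((mem_L r).1 h2).2
  have h4 : t' * xe s.val c * t'⁻¹ = xe s.val (ch e6T (vc s.val) t' * c) := by
    rw [xe_eq s.2, (act e6T (show s.val < chevE6.nroots from s.2) h1).2, ← xe_eq s.2]
  unfold zz
  rw [← h4, map_mul, map_mul, map_inv, h3]
  group

theorem simple_mov : ∀ i : Fin 6, (i ≠ 1 ∧ i ≠ 3 → ∃ s : Fin 72, rh s ≠ s ∧ ∀ j, vc s.val j = (sr i : Fin 6 → ℤ) j) ∧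
    (i = 1 ∨ i = 3 → ∃ s s' : Fin 72, rh s ≠ s ∧ rh s' ≠ s' ∧ ∀ j, vc s.val j + vc s'.val j = (sr i : Fin 6 → ℤ) j) := by
  decide +kernel

include hk in
/-- a torus element commuting with the `zz t s 1` -/
theorem tor_one (D : TD k r m ε t) {t' : ↥(chevE6.group k)} (h1 : t' ∈ TT chevE6 k) (h2 : t' ∈ Fx (SS k r m t))
    (hz : ∀ s : Fin 72, rh s ≠ s → t' * zz t s.val 1 = zz t s.val 1 * t') : t' = 1 := by
  have hch : ∀ s : Fin 72, rh s ≠ s → tchar e6T ⟨t', h1⟩ (Multiplicative.ofAdd (vc s.val)) = 1 := by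
    intro s hs
    have h3 := tor_zz r h1 h2 s 1
    rw [hz s hs, mul_inv_cancel_right] at h3
    have h4 := zz_inj r D hs h3
    apply Units.ext
    rw [tchar_apply e6T cs6 hk r ⟨t', h1⟩ (isRoot_vc s.2)]
    rw [mul_one] at h4
    exact h4.symm
  have h3 : tchar e6T ⟨t', h1⟩ = 1 := by
    refine ext_sr fun i => ?_
    rw [MonoidHom.one_apply]
    by_cases hi : i ≠ 1 ∧ i ≠ 3
    · obtain ⟨s, hs, e⟩ := (simple_mov i).1 hi
      have e' : vc s.val = sr i := funext e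
      rw [← e']
      exact hch s hs
    · obtain ⟨s, s', hs, hs', e⟩ := (simple_mov i).2 (by
        by_cases h : i = 1
        · exact Or.inl h
        · exact Or.inr (by by_contra h'; exact hi ⟨h, h'⟩))
      have e' : vc s.val + vc s'.val = sr i := funext e
      rw [← e', ofAdd_add, map_mul, hch s hs, hch s' hs', one_mul]
  have h4 : (⟨t', h1⟩ : ↥(TT chevE6 k)) = 1 := tchar_injective e6T (h3.trans (map_one _).symm)
  exact congrArg Subtype.val h4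

include hk in
/-- `C_L(⟨P, Q⟩) = 1` -/
theorem cent_PQ (hr2 : r ≠ 2) (D : TD k r m ε t) {y : ↥(chevE6.group k)} (hy : y ∈ Fx (SS k r m t))
    (hc : ∀ x ∈ P6 k r m t ⊔ Q6 k r m t, y * x = x * y) : y = 1 := by
  obtain ⟨g, hgK, hg, hPQ, hQP⟩ := k06 hk r D
  have hgL : g ∈ Fx (SS k r m t) := K6_le_L r hgK
  obtain ⟨u, hu, t', ht', e1⟩ := norm6 hk r hr2 D hy fun p hp => by
    rw [hc p (Subgroup.mem_sup_left hp), mul_inv_cancel_right]
    exact hp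
  obtain ⟨u₂, hu₂, t₂, ht₂, e2⟩ := norm6 hk r hr2 D (y := g * y * g⁻¹) (mul_mem (mul_mem hgL hy) (inv_mem hgL))
    fun p hp => by
      have h1 : g⁻¹ * p * g ∈ P6 k r m t ⊔ Q6 k r m t := by
        have h2 := conj_PQ hk r D (inv_mem hgL) (Subgroup.mem_sup_left hp)
        rwa [inv_inv] at h2
      have e : g * y * g⁻¹ * p * (g * y * g⁻¹)⁻¹ = g * (y * (g⁻¹ * p * g)) * y⁻¹ * g⁻¹ := by group
      rw [e, hc _ h1]
      have e' : g * (g⁻¹ * p * g * y) * y⁻¹ * g⁻¹ = p := by group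
      rw [e']
      exact hp
  have hTU : ∀ t₁ ∈ T6 k r m t, ∀ u₁ ∈ U6 k, t₁ * u₁ * t₁⁻¹ ∈ U6 k := by
    intro t₁ ht₁ u₁ hu₁
    have h1 : t₁ ∈ TL (Tj e6T (k := k)) := by rw [TL6 hk]; exact ht₁.1
    exact (Subgroup.mem_normalizer_iff.1 ((tw6 hk r).T_le_normalizer (S := RGD.Pos cs6 e6T.isCartan)
      (fun x hx => hx.1) h1) u₁).1 hu₁
  have hRt : ∀ t₁ ∈ T6 k r m t, Rp cs6 (tw6 hk r).nsys 1 t₁ := by
    intro t₁ ht₁
    apply rp_of_mem
    rw [TL6 hk]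
    exact ht₁.1
  have hv : t'⁻¹ * u * t' ∈ U6 k := by
    have := hTU t'⁻¹ (inv_mem ht') u hu.1
    rwa [inv_inv] at this
  have hconj : (g * t') * (t'⁻¹ * u * t') * (g * t')⁻¹ ∈ V6 k := by
    have e : (g * t') * (t'⁻¹ * u * t') * (g * t')⁻¹ = g * u * g⁻¹ := by group
    rw [e]
    exact (hPQ u hu).1
  have hconj' : (t₂ * g) * 1 * (t₂ * g)⁻¹ ∈ V6 k := by rw [mul_one, mul_inv_cancel]; exact one_mem _
  have heq : 1 * (g * t') * (t'⁻¹ * u * t') = u₂ * (t₂ * g) * 1 := by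
    have e3 : g * y = u₂ * t₂ * g := by rw [← e2]; group
    calc 1 * (g * t') * (t'⁻¹ * u * t') = g * (u * t') := by group
      _ = g * y := by rw [e1]
      _ = u₂ * (t₂ * g) * 1 := by rw [e3]; group
  obtain ⟨-, h1, h2, h3⟩ := form_unique (tw6 hk r) (one_mem _) hu₂.1 (hg.mul (hRt t' ht')) ((hRt t₂ ht₂).mul hg)
    hv hconj (one_mem _) hconj' heq
  have hu1 : u = 1 := by
    have e : u = t' * (t'⁻¹ * u * t') * t'⁻¹ := by group
    rw [e, h3]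
    group
  rw [hu1, one_mul] at e1
  subst e1
  refine tor_one hk r D ht'.1 ht'.2 fun s hs => hc _ ?_
  by_cases h36 : 36 ≤ s.val
  · exact Subgroup.mem_sup_left ⟨zz_U hk r D h36 1, zz_L r D hs (one_pow_eq r)⟩
  · refine Subgroup.mem_sup_right ⟨?_, zz_L r D hs (one_pow_eq r)⟩
    unfold zz
    rw [tau_xe r D]
    exact mul_mem (xe_V hk (not_le.1 h36) 1) (xe_V hk (rh_negative s (not_le.1 h36)) _)

/-- **`C_L(M) = 1`.** -/
theorem cent_MK (hr2 : r ≠ 2) (hm : 0 < m) (hk : LocFin k) (D : TD k r m ε t)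
    (hP : P6 k r m t ≤ MK (K6 k r m t) (X6 k r m t 71)) :
    ∀ y ∈ Fx (SS k r m t), (∀ x ∈ MK (K6 k r m t) (X6 k r m t 71), y * x = x * y) → y = 1 := by
  rw [MK_eq hk r D hP]
  exact fun y hy hc => cent_PQ hk r hr2 D hy hc

end Cfsg.Agent.H85.RGT.Six
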